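import Mathlib
import Cfsg.Agent.H105.Dp.Lin2
import Cfsg.Agent.RuLat.Orth_mg
import Cfsg.Agent.H610.ChevRegular
import Cfsg.Agent.ChevalleyStructure.XColumns
import Cfsg.Agent.H721.SR.Base
import Cfsg.Agent.H384.HT.GTwoIn_m3
import Cfsg.Agent.H638.G2Iso
import Cfsg.Agent.KFacts.RuDbl.One
import Cfsg.Agent.H51.Tools
import Cfsg.Agent.FastGrp
import Cfsg.Agent.Prune
set_option linter.all false

section
prune_inst 0x7fffbdfbbffcfbffc7ff7e7ff6decdfc39931fffa6dff94bffe061ff0bdf138a09e1f3ad89e010fc1ef7c21410aa7843fbfffeffe26bf87ffffd1ff41ffbee5ff5f7b508511488340fbc0ffe03f0778e7f3fffffffffffffffffffffffffffbeffbfffffffff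

-- part: H105/Rl/Lin
section
set_option linter.all false
open scoped Cfsg.Agent.FastGrp

/-!
# Isometries inverting a cyclic isometry (helper105, SR-OTOR of S4971)

`V` has a nondegenerate symmetric form, `x` is an isometry with a cyclic vector, `h` an isometry with
`h x h⁻¹ = x⁻¹`. Then `h² = 1`, and `dim Fix h = dim V / 2` if `x` has odd order and no fixed vectors.
-/

set_option autoImplicit false

namespace Cfsg.Agent.H105.Rl

open Module Polynomial Cfsg.Agent.H105.Dp

variable {F V : Type*} [Field F] [AddCommGroup V] [Module F V]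

/-- `u` is a cyclic vector -/
def Cyc (x : V →ₗ[F] V) (u : V) : Prop := ∀ v, ∃ f : F[X], aeval x f u = v

theorem inv_apply {x h : V ≃ₗ[F] V} (hinv : h * x * h⁻¹ = x⁻¹) (v : V) : x (h (x v)) = h v := by
  have h1 : x * (h * x) = h := by
    have : h * x = x⁻¹ * h := by rw [← hinv]; group
    rw [this]
    group
  exact LinearEquiv.congr_fun h1 v

theorem sq_one {B : V →ₗ[F] V →ₗ[F] F} (hs : ∀ v w, B v w = B w v) (hnd : ∀ v, (∀ w, B v w = 0) → v = 0)
    {x h : V ≃ₗ[F] V} (hx : ∀ v w, B (x v) (x w) = B v w) (hh : ∀ v w, B (h v) (h w) = B v w)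
    (hinv : h * x * h⁻¹ = x⁻¹) {u : V} (hu : Cyc (x : V →ₗ[F] V) u) : h * h = 1 := by
  have k1 : ∀ v w, B (x v) (h w) = B v (h (x w)) := by
    intro v w
    rw [← inv_apply hinv w, hx]
  have k1' : ∀ (n : ℕ) v w, B (((x : V →ₗ[F] V) ^ n) v) (h w) = B v (h (((x : V →ₗ[F] V) ^ n) w)) := by
    intro n
    induction n with
    | zero => intro v w; rfl
    | succ n ih =>
      intro v w
      have e1 : ((x : V →ₗ[F] V) ^ (n + 1)) v = x (((x : V →ₗ[F] V) ^ n) v) := by
        rw [pow_succ']; rfl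
      have e2 : ((x : V →ₗ[F] V) ^ (n + 1)) w = ((x : V →ₗ[F] V) ^ n) (x w) := by
        rw [pow_succ]; rfl
      rw [e1, e2, k1, ih]
  have k2 : ∀ (f : F[X]) v w, B (aeval (x : V →ₗ[F] V) f v) (h w) = B v (h (aeval (x : V →ₗ[F] V) f w)) := by
    intro f
    induction f using Polynomial.induction_on' with
    | add p q hp hq =>
      intro v w
      simp only [map_add, LinearMap.add_apply, hp, hq]
    | monomial n a =>
      intro v w
      rw [aeval_monomial, ← Algebra.smul_def, LinearMap.smul_apply, LinearMap.smul_apply, map_smul, map_smul,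
        map_smul, LinearMap.smul_apply, k1']
  have k3 : ∀ v w, B v (h w) = B w (h v) := by
    intro v w
    obtain ⟨f, rfl⟩ := hu v
    obtain ⟨g, rfl⟩ := hu w
    rw [k2, k2, ← Module.End.mul_apply, ← Module.End.mul_apply, ← map_mul, ← map_mul, mul_comm]
  have k4 : ∀ v, h (h v) = v := by
    intro v
    have : v - h (h v) = 0 := by
      apply hnd
      intro w
      obtain ⟨w, rfl⟩ := h.surjective w
      rw [map_sub, LinearMap.sub_apply, hh, k3, hs w, sub_self]
    rw [sub_eq_zero] at this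
    exact this.symm
  apply LinearEquiv.ext
  exact k4

section

variable [FiniteDimensional F V]

theorem finrank_eig_le {x h : V ≃ₗ[F] V} (hinv : h * x * h⁻¹ = x⁻¹) {k : ℕ} (hk : Odd k) (hxk : x ^ k = 1)
    (hfix : ∀ v, x v = v → v = 0) {c : F} (hc : c ≠ 0) :
    2 * finrank F (LinearMap.ker ((h : V →ₗ[F] V) - c • 1)) ≤ finrank F V := by
  set C := LinearMap.ker ((h : V →ₗ[F] V) - c • 1) with hC
  have hmem : ∀ v, v ∈ C ↔ h v = c • v := by
    intro v
    rw [hC, LinearMap.mem_ker, LinearMap.sub_apply, sub_eq_zero]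
    rfl
  have hdisj : C ⊓ C.map (x : V →ₗ[F] V) = ⊥ := by
    rw [eq_bot_iff]
    rintro v ⟨hv, w, hw, rfl⟩
    rw [SetLike.mem_coe, hmem] at hv hw
    have h1 : h (x w) = c • x w := hv
    have h2 := inv_apply hinv w
    rw [h1, hw, map_smul] at h2
    have h3 : x (x w) = w := smul_right_injective V hc h2
    have h4 : x w = w := by
      have h5 : ∀ j : ℕ, (x ^ (2 * j)) w = w := by
        intro j
        induction j with
        | zero => rfl
        | succ j ih =>
          have : x ^ (2 * (j + 1)) = x ^ (2 * j) * (x * x) := by rw [Nat.mul_succ, pow_add, pow_two]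
          rw [this]
          show (x ^ (2 * j)) (x (x w)) = w
          rw [h3, ih]
      obtain ⟨j, hj⟩ := hk
      have h6 : (x ^ k) w = w := by rw [hxk]; rfl
      rw [hj, pow_succ'] at h6
      have h7 : x ((x ^ (2 * j)) w) = w := h6
      rwa [h5] at h7
    show x w = 0
    rw [hfix w h4, map_zero]
  have h1 := Submodule.finrank_sup_add_finrank_inf_eq C (C.map (x : V →ₗ[F] V))
  rw [hdisj, finrank_bot, add_zero, LinearEquiv.finrank_map_eq x C] at h1
  have h2 := Submodule.finrank_le (C ⊔ C.map (x : V →ₗ[F] V))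
  omega

theorem finrank_fix {x h : V ≃ₗ[F] V} (hinv : h * x * h⁻¹ = x⁻¹) (hh : h * h = 1) {k : ℕ} (hk : Odd k)
    (hxk : x ^ k = 1) (hfix : ∀ v, x v = v → v = 0) :
    2 * finrank F (LinearMap.ker ((h : V →ₗ[F] V) - 1)) = finrank F V := by
  have h1 := finrank_eig_le hinv hk hxk hfix (c := 1) one_ne_zero
  have h2 := finrank_eig_le hinv hk hxk hfix (c := -1) (neg_ne_zero.2 one_ne_zero)
  rw [one_smul] at h1
  have h3 : LinearMap.range ((h : V →ₗ[F] V) - (-1 : F) • 1) ≤ LinearMap.ker ((h : V →ₗ[F] V) - 1) := by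
    rintro _ ⟨v, rfl⟩
    rw [LinearMap.mem_ker]
    have h4 : h (h v) = v := LinearEquiv.congr_fun hh v
    show h (h v - (-1 : F) • v) - (h v - (-1 : F) • v) = 0
    rw [map_sub, h4, map_smul]
    module
  have h4 := Submodule.finrank_mono h3
  have h5 := LinearMap.finrank_range_add_finrank_ker ((h : V →ₗ[F] V) - (-1 : F) • 1)
  omega

end

end Cfsg.Agent.H105.Rl
end

-- part: H105/Rl/CycV
section
set_option linter.all false
open scoped Cfsg.Agent.FastGrp

/-!
# Cyclic vectors for isometries of prime order in dimension `ee` (helper105, SR-OTOR of S4971)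
-/

set_option autoImplicit false
set_option linter.unusedSectionVars false

namespace Cfsg.Agent.H105.Rl

open Module Polynomial Cfsg.Agent.H105.Dp

variable {F V : Type*} [Field F] [Finite F] [AddCommGroup V] [Module F V] [FiniteDimensional F V]

/-- the submodule generated by `v` -/
noncomputable def Wv (x : V →ₗ[F] V) (v : V) : Submodule F V :=
  LinearMap.range ((LinearMap.applyₗ v : (V →ₗ[F] V) →ₗ[F] V) ∘ₗ (aeval x : F[X] →ₐ[F] (V →ₗ[F] V)).toLinearMap)

theorem mem_Wv {x : V →ₗ[F] V} {v w : V} : w ∈ Wv x v ↔ ∃ f : F[X], aeval x f v = w := Iff.rfl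

theorem self_mem (x : V →ₗ[F] V) (v : V) : v ∈ Wv x v := mem_Wv.2 ⟨1, by rw [map_one]; rfl⟩

theorem Wv_inv {x : V →ₗ[F] V} {v w : V} (hw : w ∈ Wv x v) : x w ∈ Wv x v := by
  obtain ⟨f, rfl⟩ := hw
  exact mem_Wv.2 ⟨X * f, by rw [map_mul, aeval_X]; rfl⟩

section

variable {x : V →ₗ[F] V} {r : ℕ} (hr : r.Prime) (hrF : (r : F) ≠ 0) (hxr : x ^ r = 1)
  (hfix : ∀ v, x v = v → v = 0)

include hr hrF hxr hfix in
theorem dvd_finrank_sub (W : Submodule F V) (hW : ∀ w ∈ W, x w ∈ W) :
    orderOf ((Nat.card F : ℕ) : ZMod r) ∣ finrank F W := by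
  refine orderOf_dvd_finrank (g := x.restrict hW) hr hrF ?_ ?_
  · apply LinearMap.ext
    intro w
    apply Subtype.ext
    rw [Module.End.pow_restrict]
    show (x ^ r) (w : V) = w
    rw [hxr]
    rfl
  · intro w hw
    have h1 := congrArg Subtype.val hw
    exact Subtype.ext (hfix w h1)

include hr hrF hxr hfix in
/-- **cyclic vectors** -/
theorem exists_cyc (b : Frm F V) (hs : ∀ v w, b.B v w = b.B w v) (hx : Iso b x) (hr2 : r ≠ 2) {m : ℕ} (hm : 0 < m)
    (hdim : finrank F V = 2 * m)
    (hord : orderOf ((Nat.card F : ℕ) : ZMod r) = 2 * m ∨ (orderOf ((Nat.card F : ℕ) : ZMod r) = m ∧ Odd m)) :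
    ∃ u, Cyc x u := by
  by_contra hcon
  push Not at hcon
  have hne : ∀ v, Wv x v ≠ ⊤ := by
    intro v hv
    obtain hc := hcon v
    apply hc
    intro w
    exact mem_Wv.1 (hv ▸ Submodule.mem_top)
  have hlt : ∀ v, finrank F (Wv x v) < 2 * m := by
    intro v
    rw [← hdim]
    exact Submodule.finrank_lt (lt_top_iff_ne_top.2 (hne v)).ne_top
  -- all cyclic submodules are totally isotropic
  have hiso : ∀ v, ∀ a ∈ Wv x v, ∀ c ∈ Wv x v, b.B a c = 0 := by
    intro v
    set W := Wv x v with hWdef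
    have hWinv : ∀ w ∈ W, x w ∈ W := fun w hw => Wv_inv hw
    have hd := dvd_finrank_sub hr hrF hxr hfix W hWinv
    rcases Nat.eq_zero_or_pos (finrank F W) with h0 | hpos
    · intro a ha c hc
      have : W = ⊥ := Submodule.finrank_eq_zero.1 h0
      rw [this, Submodule.mem_bot] at ha
      rw [ha, map_zero, LinearMap.zero_apply]
    · rcases hord with ho | ⟨ho, hodd⟩
      · rw [ho] at hd
        exact absurd (Nat.le_of_dvd hpos hd) (not_le.2 (hlt v))
      · rw [ho] at hd
        have hWm : finrank F W = m := by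
          obtain ⟨k, hk⟩ := hd
          have h1 := hlt v
          rw [← hWdef, hk] at h1
          have hk0 : 0 < k := by
            rcases Nat.eq_zero_or_pos k with rfl | h
            · omega
            · exact h
          have hk2 : k < 2 := by
            by_contra hc
            have : m * 2 ≤ m * k := Nat.mul_le_mul_left _ (by omega)
            omega
          obtain rfl : k = 1 := by omega
          omega
        -- the radical of `W`
        let rad : Submodule F V :=
          { carrier := {a | a ∈ W ∧ ∀ c ∈ W, b.B a c = 0}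
            add_mem' := fun {a a'} ha ha' => ⟨W.add_mem ha.1 ha'.1, fun c hc => by
              rw [map_add, LinearMap.add_apply, ha.2 c hc, ha'.2 c hc, add_zero]⟩
            zero_mem' := ⟨W.zero_mem, fun c _ => by rw [map_zero, LinearMap.zero_apply]⟩
            smul_mem' := fun s a ha => ⟨W.smul_mem s ha.1, fun c hc => by
              rw [map_smul, LinearMap.smul_apply, ha.2 c hc, smul_zero]⟩ }
        have hpowW : ∀ n : ℕ, ∀ w ∈ W, (x ^ n) w ∈ W := by
          intro n
          induction n with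
          | zero => intro w hw; exact hw
          | succ n ih =>
            intro w hw
            rw [pow_succ]
            exact ih _ (hWinv w hw)
        have hradinv : ∀ w ∈ rad, x w ∈ rad := by
          rintro w ⟨hw1, hw2⟩
          refine ⟨hWinv w hw1, fun c hc => ?_⟩
          have h1 : x ((x ^ (r - 1)) c) = c := by
            have : x * x ^ (r - 1) = 1 := by rw [← pow_succ', Nat.sub_add_cancel hr.pos, hxr]
            exact LinearMap.congr_fun this c
          rw [← h1, hx]
          exact hw2 _ (hpowW _ c hc)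
        have hd2 := dvd_finrank_sub hr hrF hxr hfix rad hradinv
        rw [ho] at hd2
        have hle : rad ≤ W := fun a ha => ha.1
        rcases Nat.eq_zero_or_pos (finrank F rad) with h0 | hpos2
        · -- nondegenerate
          exfalso
          have hbot : rad = ⊥ := Submodule.finrank_eq_zero.1 h0
          let bW : Frm F W :=
            { B := b.B.domRestrict₁₂ W W
              nd := fun a ha => by
                have h1 : (a : V) ∈ rad := ⟨a.2, fun c hc => ha ⟨c, hc⟩⟩
                rw [hbot, Submodule.mem_bot] at h1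
                exact Subtype.ext h1
              refl := fun a c h => b.refl a c h
              alt := fun h a => b.alt h a }
          have h2 : Even (finrank F W) := by
            refine even_finrank bW (g := x.restrict hWinv) (fun a c => hx a c) (hr.odd_of_ne_two hr2) ?_ ?_
            · apply LinearMap.ext
              intro w
              apply Subtype.ext
              rw [Module.End.pow_restrict]
              show (x ^ r) (w : V) = w
              rw [hxr]
              rfl
            · intro w hw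
              have h1 := congrArg Subtype.val hw
              exact Subtype.ext (hfix w h1)
          rw [hWm] at h2
          exact (Nat.not_even_iff_odd.2 hodd) h2
        · have h3 : finrank F rad = finrank F W := by
            have h4 := Nat.le_of_dvd hpos2 hd2
            have h5 := Submodule.finrank_mono hle
            omega
          have h4 := Submodule.eq_of_le_of_finrank_eq hle h3
          intro a ha c hc
          rw [← h4] at ha
          exact ha.2 c hc
  have h1 : ∀ v, b.B v (x v) = 0 := fun v => hiso v _ (self_mem x v) _ (Wv_inv (self_mem x v))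
  have h2 : ∀ v w, b.B v (x w) + b.B w (x v) = 0 := by
    intro v w
    have h3 := h1 (v + w)
    rw [map_add, map_add, map_add, LinearMap.add_apply, LinearMap.add_apply, h1, h1] at h3
    rw [zero_add, add_zero, add_comm] at h3
    exact h3
  have h3 : ∀ w, x (x w) + w = 0 := by
    intro w
    apply b.nd
    intro v
    rw [hs, map_add, ← h2 v (x w), hx, hs w v]
  have h4 : x ^ 4 = 1 := by
    apply LinearMap.ext
    intro w
    have h5 : ∀ w, x (x w) = -w := fun w => eq_neg_of_add_eq_zero_left (h3 w)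
    show x (x (x (x w))) = w
    rw [h5, h5, neg_neg]
  have h5 : x = 1 := by
    have h6 : x ^ Nat.gcd 4 r = 1 := pow_gcd_eq_one.2 ⟨h4, hxr⟩
    have h7 : Nat.gcd 4 r = 1 := by
      have : Nat.Coprime (2 ^ 2) r := Nat.Coprime.pow_left 2 ((Nat.coprime_primes Nat.prime_two hr).2 (Ne.symm hr2))
      exact this
    rwa [h7, pow_one] at h6
  have h6 : ∀ v : V, v = 0 := fun v => hfix v (by rw [h5]; rfl)
  have h7 : finrank F V = 0 := by
    have : Subsingleton V := ⟨fun a c => by rw [h6 a, h6 c]⟩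
    exact finrank_zero_of_subsingleton
  omega

end

end Cfsg.Agent.H105.Rl
end

-- part: H29/RuRData
section
set_option linter.all false

set_option autoImplicit false

/-!
# An element of order 16 of the Rudvalis group: data

Images of the 28 frame vectors `4 e_p` and of the 28 basis vectors under an element `G` of `fourRu` with
`4 * trace = 4 + 4 i` (entries: line, exponent, packed unit codes, scale, as in `RuLat.LiftData`).
-/

namespace Cfsg.Agent.H29.RuR

open Cfsg.Spor Cfsg.Agent.RuLat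

/-- the frame vectors `4 e_p` -/
def FL : List (ℕ × ℕ × ℕ × ℕ) := [(0, 0, 0x1, 4),
  (580, 3, 0x8, 4),
  (161, 3, 0x40, 4),
  (1544, 3, 0x200, 4),
  (3721, 0, 0x1000, 4),
  (1227, 3, 0x8000, 4),
  (149, 3, 0x40000, 4),
  (1668, 3, 0x200000, 4),
  (952, 0, 0x1000000, 4),
  (3126, 3, 0x8000000, 4),
  (1132, 3, 0x40000000, 4),
  (3021, 3, 0x200000000, 4),
  (3516, 0, 0x1000000000, 4),
  (2904, 3, 0x8000000000, 4),
  (1347, 3, 0x40000000000, 4),
  (399, 3, 0x200000000000, 4),
  (1977, 0, 0x1000000000000, 4),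
  (3944, 3, 0x8000000000000, 4),
  (912, 3, 0x40000000000000, 4),
  (2553, 3, 0x200000000000000, 4),
  (987, 0, 0x1000000000000000, 4),
  (3328, 3, 0x8000000000000000, 4),
  (98, 3, 0x40000000000000000, 4),
  (1897, 3, 0x200000000000000000, 4),
  (609, 0, 0x1000000000000000000, 4),
  (2002, 3, 0x8000000000000000000, 4),
  (2030, 3, 0x40000000000000000000, 4),
  (2488, 3, 0x200000000000000000000, 4)]

/-- the images of the frame vectors under the element `G` -/
def FG : List (ℕ × ℕ × ℕ × ℕ) := [(0, 0, 0x1, 4),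
  (2169, 1, 0x8200c4c06035096180c8, 1),
  (2938, 2, 0x65c3146510004e2000, 1),
  (3747, 3, 0x822400090d0889101058, 1),
  (2914, 1, 0x8448028008848b820048, 1),
  (964, 2, 0xc3023280402652410110, 1),
  (51, 0, 0xc39000240882d20c40a0, 1),
  (148, 3, 0x1020230128044990c4048, 1),
  (1970, 1, 0x6018d3810602102900840, 1),
  (4048, 1, 0x6400246014a4410202818, 1),
  (3592, 3, 0x480014050293618090620, 1),
  (2794, 1, 0x201721042403102021440, 1),
  (500, 0, 0x436c04c00d0262208120, 1),
  (1383, 2, 0xc100c01b201254101120, 1),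
  (48, 1, 0x8a18cb89a000299000, 1),
  (2002, 3, 0x8000000000000000000, 4),
  (423, 1, 0x6015221030900826408c0, 1),
  (811, 0, 0x4022e48201100c3023700, 1),
  (1287, 2, 0x64084040230a8100a0808, 1),
  (1454, 3, 0x2403000d0499810803408, 1),
  (3086, 0, 0x4014080218408022d2208, 1),
  (440, 2, 0x4c00606d4208120043240, 1),
  (1316, 0, 0x80108400c02480244c608, 1),
  (3407, 0, 0x30040464b0c20480c3880, 1),
  (2312, 2, 0x20480824001420125b810, 1),
  (1425, 0, 0x84040269c810110418640, 1),
  (2290, 3, 0x4400983230c4110610240, 1),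
  (1413, 3, 0x4030c3640680804461208, 1)]

/-- the images of the basis vectors under the element `G` -/
def LG : List (ℕ × ℕ × ℕ × ℕ) := [(0, 0, 0x1, 4),
  (3804, 2, 0x41800c3000d02490c2204, 1),
  (2169, 2, 0xc3011700804652820110, 1),
  (291, 3, 0x418013009108894208204, 1),
  (1316, 1, 0x2020c1011009203691810, 1),
  (2579, 1, 0x218c02017210c4801084, 1),
  (3672, 3, 0x1201049000128046db410, 1),
  (2733, 0, 0x982cb4200d8041021022, 1),
  (2002, 0, 0x10000000000000000000, 4),
  (500, 0, 0x436c04c00d0262208120, 1),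
  (1, 2, 0x8180110191182d9218604, 1),
  (3293, 0, 0xe02d20810d80842c0019, 1),
  (3958, 0, 0x64b0c20480c3880300404, 1),
  (3660, 3, 0x8a14db261000464, 1),
  (2286, 0, 0xd069c0c460410401300b, 1),
  (2790, 2, 0x66300031b0000006da8cb, 1),
  (2837, 0, 0x40485c0c404880800c8c0, 1),
  (3257, 1, 0x9004c00e06a30c26040c1, 1),
  (1924, 3, 0x6910810484188807000d0, 1),
  (3156, 3, 0x2c08c0203894103090082, 1),
  (3540, 2, 0x7000886c90c4090104011, 1),
  (2090, 1, 0x609121010d80c301a4c0, 1),
  (2793, 0, 0x4880800c8c040485c0c4, 1),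
  (3631, 3, 0x840108499208202210880, 1),
  (805, 1, 0x1084992086042105004c0, 1),
  (1187, 3, 0x21840341801144040251b, 1),
  (164, 1, 0x663000719000000513694, 1),
  (2518, 3, 0x3114100a022001a00b802, 1)]

/-- equality of the Gram matrices of two pairs of families -/
noncomputable def okGram2 (l m l' m' : List (ℕ × ℕ × ℕ × ℕ)) : Bool :=
  allT (l.zip m) (fun z => allT (l'.zip m') (fun w =>
    hermEq z.1.2.2.1 z.1.2.2.2 w.1.2.2.1 w.1.2.2.2 z.2.2.2.1 z.2.2.2.2 w.2.2.2.1 w.2.2.2.2))

theorem okFL : allT FL okEnt = true := by decide +kernel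
theorem okFG : allT FG okEnt = true := by decide +kernel
theorem okLG : allT LG okEnt = true := by decide +kernel

theorem okBB : okGram2 LG LB LG LB = true := by decide +kernel
theorem okFB : okGram2 FG FL LG LB = true := by decide +kernel
theorem okFF : okGram2 FG FL FG FL = true := by decide +kernel

end Cfsg.Agent.H29.RuR
end

-- part: H473/SR/Three
section
prune_inst 0x4000400004003800000008013201c428600049200480000e840024006c00c60c0802060a0102010820a84050031004000100180406000000e000000011800a080020208b1480104040019800080000000000000000000000000000000000004000000000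
set_option linter.all false
open scoped Cfsg.Agent.FastGrp

/-!
# A non-real element of `G₂(3^a)` (helper473, S4971 / S4970)

`u = x_a(1) x_b(1) x_{3a+b}(w)`, where `-w` is not of the form `s³ - s`. An element inverting `u` lies in the Borel
subgroup; in characteristic 3 the positive short root vectors span an invariant space, which gives two
homomorphisms of `U` onto Heisenberg groups.
-/

set_option autoImplicit false

namespace Cfsg.Agent.H473.SR.Three

open Cfsg Cfsg.Lie Cfsg.Agent.ChevalleyStructure.Elts Cfsg.Agent.ChevalleyStructure.RootVec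
  Cfsg.Agent.ChevalleyStructure.RootVecTab Cfsg.Agent.ChevalleyStructure.XColumns Cfsg.Agent.H610.ChevRegular
open scoped Matrix

universe u

variable {F : Type u} [Field F]

/-- the action on the positive root vectors -/
def Q4 (M : Matrix chevG2.Idx chevG2.Idx F) (s r z w : F) : Prop :=
  M *ᵥ ev chevG2 F 7 = ev chevG2 F 7 + r • ev chevG2 F 8 + z • ev chevG2 F 9 ∧
  M *ᵥ ev chevG2 F 8 = ev chevG2 F 8 + s • ev chevG2 F 9 ∧
  M *ᵥ ev chevG2 F 9 = ev chevG2 F 9 ∧
  M *ᵥ ev chevG2 F 11 = ev chevG2 F 11 ∧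
  M *ᵥ ev chevG2 F 10 = ev chevG2 F 10 + r • ev chevG2 F 11 ∧
  ∃ p q : F, M *ᵥ ev chevG2 F 6 = ev chevG2 F 6 + s ^ 3 • ev chevG2 F 10 + w • ev chevG2 F 11 +
    p • ev chevG2 F 8 + q • ev chevG2 F 9

theorem Q4.mul [CharP F 3] {M N : Matrix chevG2.Idx chevG2.Idx F} {s r z w s' r' z' w' : F} (hM : Q4 M s r z w)
    (hN : Q4 N s' r' z' w') : Q4 (M * N) (s + s') (r + r') (z + z' + r' * s) (w + w' + s' ^ 3 * r) := by
  obtain ⟨a1, a2, a3, a4, a5, p, q, a6⟩ := hM
  obtain ⟨b1, b2, b3, b4, b5, p', q', b6⟩ := hN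
  have h3 : (s + s') ^ 3 = s ^ 3 + s' ^ 3 := by
    have : (3 : F) = 0 := by exact_mod_cast CharP.cast_eq_zero F 3
    linear_combination (s ^ 2 * s' + s * s' ^ 2) * this
  refine ⟨?_, ?_, ?_, ?_, ?_, p + p', q + q' + p' * s, ?_⟩
  · rw [← Matrix.mulVec_mulVec, b1, Matrix.mulVec_add, Matrix.mulVec_add, Matrix.mulVec_smul, Matrix.mulVec_smul, a1,
      a2, a3]
    module
  · rw [← Matrix.mulVec_mulVec, b2, Matrix.mulVec_add, Matrix.mulVec_smul, a2, a3]
    module
  · rw [← Matrix.mulVec_mulVec, b3, a3]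
  · rw [← Matrix.mulVec_mulVec, b4, a4]
  · rw [← Matrix.mulVec_mulVec, b5, Matrix.mulVec_add, Matrix.mulVec_smul, a4, a5]
    module
  · rw [← Matrix.mulVec_mulVec, b6, Matrix.mulVec_add, Matrix.mulVec_add, Matrix.mulVec_add, Matrix.mulVec_add,
      Matrix.mulVec_smul, Matrix.mulVec_smul, Matrix.mulVec_smul, Matrix.mulVec_smul, a2, a3, a4, a5, a6, h3]
    module

theorem Q4.unique {M : Matrix chevG2.Idx chevG2.Idx F} {s r z w s' r' z' w' : F} (hM : Q4 M s r z w)
    (hN : Q4 M s' r' z' w') : s = s' ∧ r = r' ∧ z = z' ∧ w = w' := by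
  obtain ⟨a1, a2, a3, a4, a5, p, q, a6⟩ := hM
  obtain ⟨b1, b2, b3, b4, b5, p', q', b6⟩ := hN
  have e1 := congrFun (a1.symm.trans b1) (Sum.inr ⟨8, by decide⟩)
  have e2 := congrFun (a1.symm.trans b1) (Sum.inr ⟨9, by decide⟩)
  have e3 := congrFun (a2.symm.trans b2) (Sum.inr ⟨9, by decide⟩)
  have e4 := congrFun (a6.symm.trans b6) (Sum.inr ⟨11, by decide⟩)
  simp at e1 e2 e3 e4
  exact ⟨e3, e1, e2, e4⟩

theorem nodup_row {r : ℕ} (hr : r < 12) :
    ((Cfsg.Agent.ChevalleyStructure.XColumns.row chevG2 r).map Prod.fst).Nodup := by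
  interval_cases r <;> decide +kernel

theorem chainEntry_tab : chevG2.chainEntry 6 7 = [(8, 1)] ∧
    chevG2.chainEntry 6 8 = [] ∧
    chevG2.chainEntry 6 9 = [] ∧
    chevG2.chainEntry 6 10 = [(11, 1)] ∧
    chevG2.chainEntry 6 11 = [] ∧
    chevG2.chainEntry 7 6 = [(8, -1), (9, 1), (10, 1)] ∧
    chevG2.chainEntry 7 8 = [(9, -2), (10, -3)] ∧
    chevG2.chainEntry 7 9 = [(10, 3)] ∧
    chevG2.chainEntry 7 10 = [] ∧
    chevG2.chainEntry 7 11 = [] ∧
    chevG2.chainEntry 8 6 = [] ∧
    chevG2.chainEntry 8 7 = [(9, 2), (11, 3)] ∧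
    chevG2.chainEntry 8 9 = [(11, 3)] ∧
    chevG2.chainEntry 8 10 = [] ∧
    chevG2.chainEntry 8 11 = [] ∧
    chevG2.chainEntry 9 6 = [] ∧
    chevG2.chainEntry 9 7 = [(10, -3)] ∧
    chevG2.chainEntry 9 8 = [(11, -3)] ∧
    chevG2.chainEntry 9 10 = [] ∧
    chevG2.chainEntry 9 11 = [] ∧
    chevG2.chainEntry 10 6 = [(11, -1)] ∧
    chevG2.chainEntry 10 7 = [] ∧
    chevG2.chainEntry 10 8 = [] ∧
    chevG2.chainEntry 10 9 = [] ∧
    chevG2.chainEntry 10 11 = [] ∧
    chevG2.chainEntry 11 6 = [] ∧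
    chevG2.chainEntry 11 7 = [] ∧
    chevG2.chainEntry 11 8 = [] ∧
    chevG2.chainEntry 11 9 = [] ∧
    chevG2.chainEntry 11 10 = [] := by
  decide +kernel

/-- the columns -/
theorem col {r s : ℕ} (hr : r < 12) (hs : s < 12) (hsr : s ≠ r) (hsn : s + r ≠ 11) {l : List (ℕ × ℤ)}
    (hl : chevG2.chainEntry r s = l) (t : F) : chevG2.x F r t *ᵥ ev chevG2 F s = ev chevG2 F s +
      (l.zipIdx.map fun q => ((q.1.2 : F) * t ^ (q.2 + 1)) • ev chevG2 F q.1.1).sum := by
  rw [x_mulVec_ev (D := chevG2) hr hs hsr ?_ (nodup_row hr) t, hl]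
  intro h
  have h1 : chevG2.neg r = 11 - r := by
    interval_cases r <;> decide +kernel
  omega

theorem q4_7 [CharP F 3] (t : F) : Q4 (chevG2.x F 7 t) t 0 0 0 := by
  have h3 : (3 : F) = 0 := by exact_mod_cast CharP.cast_eq_zero F 3
  have h2 : (2 : F) = -1 := by linear_combination h3
  obtain ⟨-, -, -, -, -, e7_6, e7_8, e7_9, e7_10, e7_11, -, -, -, -, -, -, -, -, -, -, -, -, -, -, -, -, -, -, -, -⟩ := chainEntry_tab
  refine ⟨?_, ?_, ?_, ?_, ?_, (-t), (t ^ 2), ?_⟩
  · rw [x_mulVec_ev_self (D := chevG2) (by decide +kernel)]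
    simp
  · rw [col (by norm_num) (by norm_num) (by norm_num) (by norm_num) e7_8]
    simp [List.zipIdx_cons, h2, h3]
  · rw [col (by norm_num) (by norm_num) (by norm_num) (by norm_num) e7_9]
    simp [List.zipIdx_cons, h2, h3]
  · rw [col (by norm_num) (by norm_num) (by norm_num) (by norm_num) e7_11]
    simp [List.zipIdx_cons, h2, h3]
  · rw [col (by norm_num) (by norm_num) (by norm_num) (by norm_num) e7_10]
    simp [List.zipIdx_cons, h2, h3]
  · rw [col (by norm_num) (by norm_num) (by norm_num) (by norm_num) e7_6]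
    simp [List.zipIdx_cons, h2, h3]
    module

theorem q4_6 [CharP F 3] (t : F) : Q4 (chevG2.x F 6 t) 0 t 0 0 := by
  have h3 : (3 : F) = 0 := by exact_mod_cast CharP.cast_eq_zero F 3
  have h2 : (2 : F) = -1 := by linear_combination h3
  obtain ⟨e6_7, e6_8, e6_9, e6_10, e6_11, -, -, -, -, -, -, -, -, -, -, -, -, -, -, -, -, -, -, -, -, -, -, -, -, -⟩ := chainEntry_tab
  refine ⟨?_, ?_, ?_, ?_, ?_, 0, 0, ?_⟩
  · rw [col (by norm_num) (by norm_num) (by norm_num) (by norm_num) e6_7]
    simp [List.zipIdx_cons, h2, h3]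
  · rw [col (by norm_num) (by norm_num) (by norm_num) (by norm_num) e6_8]
    simp [List.zipIdx_cons, h2, h3]
  · rw [col (by norm_num) (by norm_num) (by norm_num) (by norm_num) e6_9]
    simp [List.zipIdx_cons, h2, h3]
  · rw [col (by norm_num) (by norm_num) (by norm_num) (by norm_num) e6_11]
    simp [List.zipIdx_cons, h2, h3]
  · rw [col (by norm_num) (by norm_num) (by norm_num) (by norm_num) e6_10]
    simp [List.zipIdx_cons, h2, h3]
  · rw [x_mulVec_ev_self (D := chevG2) (by decide +kernel)]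
    simp

theorem q4_8 [CharP F 3] (t : F) : Q4 (chevG2.x F 8 t) 0 0 (-t) 0 := by
  have h3 : (3 : F) = 0 := by exact_mod_cast CharP.cast_eq_zero F 3
  have h2 : (2 : F) = -1 := by linear_combination h3
  obtain ⟨-, -, -, -, -, -, -, -, -, -, e8_6, e8_7, e8_9, e8_10, e8_11, -, -, -, -, -, -, -, -, -, -, -, -, -, -, -⟩ := chainEntry_tab
  refine ⟨?_, ?_, ?_, ?_, ?_, 0, 0, ?_⟩
  · rw [col (by norm_num) (by norm_num) (by norm_num) (by norm_num) e8_7]
    simp [List.zipIdx_cons, h2, h3]
  · rw [x_mulVec_ev_self (D := chevG2) (by decide +kernel)]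
    simp
  · rw [col (by norm_num) (by norm_num) (by norm_num) (by norm_num) e8_9]
    simp [List.zipIdx_cons, h2, h3]
  · rw [col (by norm_num) (by norm_num) (by norm_num) (by norm_num) e8_11]
    simp [List.zipIdx_cons, h2, h3]
  · rw [col (by norm_num) (by norm_num) (by norm_num) (by norm_num) e8_10]
    simp [List.zipIdx_cons, h2, h3]
  · rw [col (by norm_num) (by norm_num) (by norm_num) (by norm_num) e8_6]
    simp [List.zipIdx_cons, h2, h3]

theorem q4_9 [CharP F 3] (t : F) : Q4 (chevG2.x F 9 t) 0 0 0 0 := by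
  have h3 : (3 : F) = 0 := by exact_mod_cast CharP.cast_eq_zero F 3
  have h2 : (2 : F) = -1 := by linear_combination h3
  obtain ⟨-, -, -, -, -, -, -, -, -, -, -, -, -, -, -, e9_6, e9_7, e9_8, e9_10, e9_11, -, -, -, -, -, -, -, -, -, -⟩ := chainEntry_tab
  refine ⟨?_, ?_, ?_, ?_, ?_, 0, 0, ?_⟩
  · rw [col (by norm_num) (by norm_num) (by norm_num) (by norm_num) e9_7]
    simp [List.zipIdx_cons, h2, h3]
  · rw [col (by norm_num) (by norm_num) (by norm_num) (by norm_num) e9_8]
    simp [List.zipIdx_cons, h2, h3]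
  · exact x_mulVec_ev_self (D := chevG2) (by decide +kernel) t
  · rw [col (by norm_num) (by norm_num) (by norm_num) (by norm_num) e9_11]
    simp [List.zipIdx_cons, h2, h3]
  · rw [col (by norm_num) (by norm_num) (by norm_num) (by norm_num) e9_10]
    simp [List.zipIdx_cons, h2, h3]
  · rw [col (by norm_num) (by norm_num) (by norm_num) (by norm_num) e9_6]
    simp [List.zipIdx_cons, h2, h3]

theorem q4_10 [CharP F 3] (t : F) : Q4 (chevG2.x F 10 t) 0 0 0 (-t) := by
  have h3 : (3 : F) = 0 := by exact_mod_cast CharP.cast_eq_zero F 3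
  have h2 : (2 : F) = -1 := by linear_combination h3
  obtain ⟨-, -, -, -, -, -, -, -, -, -, -, -, -, -, -, -, -, -, -, -, e10_6, e10_7, e10_8, e10_9, e10_11, -, -, -, -, -⟩ := chainEntry_tab
  refine ⟨?_, ?_, ?_, ?_, ?_, 0, 0, ?_⟩
  · rw [col (by norm_num) (by norm_num) (by norm_num) (by norm_num) e10_7]
    simp [List.zipIdx_cons, h2, h3]
  · rw [col (by norm_num) (by norm_num) (by norm_num) (by norm_num) e10_8]
    simp [List.zipIdx_cons, h2, h3]
  · rw [col (by norm_num) (by norm_num) (by norm_num) (by norm_num) e10_9]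
    simp [List.zipIdx_cons, h2, h3]
  · rw [col (by norm_num) (by norm_num) (by norm_num) (by norm_num) e10_11]
    simp [List.zipIdx_cons, h2, h3]
  · rw [x_mulVec_ev_self (D := chevG2) (by decide +kernel)]
    simp
  · rw [col (by norm_num) (by norm_num) (by norm_num) (by norm_num) e10_6]
    simp [List.zipIdx_cons, h2, h3]

theorem q4_11 [CharP F 3] (t : F) : Q4 (chevG2.x F 11 t) 0 0 0 0 := by
  have h3 : (3 : F) = 0 := by exact_mod_cast CharP.cast_eq_zero F 3
  have h2 : (2 : F) = -1 := by linear_combination h3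
  obtain ⟨-, -, -, -, -, -, -, -, -, -, -, -, -, -, -, -, -, -, -, -, -, -, -, -, -, e11_6, e11_7, e11_8, e11_9, e11_10⟩ := chainEntry_tab
  refine ⟨?_, ?_, ?_, ?_, ?_, 0, 0, ?_⟩
  · rw [col (by norm_num) (by norm_num) (by norm_num) (by norm_num) e11_7]
    simp [List.zipIdx_cons, h2, h3]
  · rw [col (by norm_num) (by norm_num) (by norm_num) (by norm_num) e11_8]
    simp [List.zipIdx_cons, h2, h3]
  · rw [col (by norm_num) (by norm_num) (by norm_num) (by norm_num) e11_9]
    simp [List.zipIdx_cons, h2, h3]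
  · exact x_mulVec_ev_self (D := chevG2) (by decide +kernel) t
  · rw [col (by norm_num) (by norm_num) (by norm_num) (by norm_num) e11_10]
    simp [List.zipIdx_cons, h2, h3]
  · rw [col (by norm_num) (by norm_num) (by norm_num) (by norm_num) e11_6]
    simp [List.zipIdx_cons, h2, h3]

theorem q4_one : Q4 (1 : Matrix chevG2.Idx chevG2.Idx F) 0 0 0 0 := by
  refine ⟨?_, ?_, ?_, ?_, ?_, 0, 0, ?_⟩ <;> simp

theorem Q4.inv [CharP F 3] {M N : Matrix chevG2.Idx chevG2.Idx F} {s r z w : F} (hM : Q4 M s r z w) (hNM : N * M = 1) :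
    Q4 N (-s) (-r) (r * s - z) (s ^ 3 * r - w) := by
  obtain ⟨a1, a2, a3, a4, a5, p, q, a6⟩ := hM
  have key : ∀ x, N *ᵥ (M *ᵥ x) = x := fun x => by rw [Matrix.mulVec_mulVec, hNM, Matrix.one_mulVec]
  have b3 : N *ᵥ ev chevG2 F 9 = ev chevG2 F 9 := by
    have := key (ev chevG2 F 9)
    rwa [a3] at this
  have b4 : N *ᵥ ev chevG2 F 11 = ev chevG2 F 11 := by
    have := key (ev chevG2 F 11)
    rwa [a4] at this
  have b5 : N *ᵥ ev chevG2 F 10 = ev chevG2 F 10 + (-r) • ev chevG2 F 11 := by
    have := key (ev chevG2 F 10)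
    rw [a5, Matrix.mulVec_add, Matrix.mulVec_smul, b4] at this
    rw [eq_sub_of_add_eq this]
    module
  have b2 : N *ᵥ ev chevG2 F 8 = ev chevG2 F 8 + (-s) • ev chevG2 F 9 := by
    have := key (ev chevG2 F 8)
    rw [a2, Matrix.mulVec_add, Matrix.mulVec_smul, b3] at this
    rw [eq_sub_of_add_eq this]
    module
  refine ⟨?_, b2, b3, b4, b5, -p, p * s - q, ?_⟩
  · have := key (ev chevG2 F 7)
    rw [a1, Matrix.mulVec_add, Matrix.mulVec_add, Matrix.mulVec_smul, Matrix.mulVec_smul, b3, b2] at this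
    rw [eq_sub_of_add_eq (eq_sub_of_add_eq this)]
    module
  · have := key (ev chevG2 F 6)
    rw [a6, Matrix.mulVec_add, Matrix.mulVec_add, Matrix.mulVec_add, Matrix.mulVec_add, Matrix.mulVec_smul,
      Matrix.mulVec_smul, Matrix.mulVec_smul, Matrix.mulVec_smul, b3, b2, b4, b5] at this
    rw [eq_sub_of_add_eq (eq_sub_of_add_eq (eq_sub_of_add_eq (eq_sub_of_add_eq this)))]
    module

/-- the elements of `U` -/
theorem exists_q4 [CharP F 3] {v : GL chevG2.Idx F} (hv : v ∈ chevG2.posUnipotent F) :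
    ∃ s r z w, Q4 (v : Matrix chevG2.Idx chevG2.Idx F) s r z w := by
  refine Subgroup.closure_induction (p := fun (v : GL chevG2.Idx F) _ =>
    ∃ s r z w, Q4 (v : Matrix chevG2.Idx chevG2.Idx F) s r z w) ?_ ⟨0, 0, 0, 0, q4_one⟩ ?_ ?_ hv
  · rintro g ⟨r, t, hr, hg⟩
    rw [hg]
    have h6 : 6 ≤ r ∧ r < 12 := by
      have h1 : r < 12 := hr.1
      refine ⟨?_, h1⟩
      by_contra h
      have h2 : ∀ r < 6, ¬ chevG2.IsPosRoot r := by
        intro r hr
        interval_cases r <;> decide +kernel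
      exact h2 r (by omega) hr
    obtain ⟨h1, h2⟩ := h6
    interval_cases r
    · exact ⟨_, _, _, _, q4_6 t⟩
    · exact ⟨_, _, _, _, q4_7 t⟩
    · exact ⟨_, _, _, _, q4_8 t⟩
    · exact ⟨_, _, _, _, q4_9 t⟩
    · exact ⟨_, _, _, _, q4_10 t⟩
    · exact ⟨_, _, _, _, q4_11 t⟩
  · rintro x y _ _ ⟨s, r, z, w, h⟩ ⟨s', r', z', w', h'⟩
    exact ⟨_, _, _, _, h.mul h'⟩
  · rintro x _ ⟨s, r, z, w, h⟩
    exact ⟨_, _, _, _, h.inv (by rw [← Units.val_mul, inv_mul_cancel, Units.val_one])⟩

/-- an element inverting a regular unipotent element lies in the Borel subgroup -/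
theorem mem_borel_of_inv {D : ChevalleyDatum} (hD : InList D) {y : GL D.Idx F} (hy : Reg hD y) {g : GL D.Idx F}
    (hg : g ∈ D.group F) (hgy : g * y * g⁻¹ = y⁻¹) : g ∈ D.borelSubgroup F := by
  obtain ⟨P, hPB, hPN, hPS⟩ := Cfsg.Agent.S1042.result (F := F) D hD
  have hyG : y ∈ D.group F := posUnipotent_le_group hD F hy.1
  have hyB : (⟨y, hyG⟩ : D.group F) ∈ P.B := by
    rw [hPB, Subgroup.mem_subgroupOf]
    exact Subgroup.mem_sup_left hy.1
  by_contra hgB
  have hgB' : (⟨g, hg⟩ : D.group F)⁻¹ ∉ P.B := by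
    intro h
    apply hgB
    have h1 := inv_mem h
    rwa [inv_inv, hPB, Subgroup.mem_subgroupOf] at h1
  have h1 : ((⟨g, hg⟩ : D.group F)⁻¹)⁻¹ * ⟨y, hyG⟩ * (⟨g, hg⟩ : D.group F)⁻¹ ∈ P.B := by
    have e : ((⟨g, hg⟩ : D.group F)⁻¹)⁻¹ * ⟨y, hyG⟩ * (⟨g, hg⟩ : D.group F)⁻¹ = (⟨y, hyG⟩ : D.group F)⁻¹ := by
      rw [inv_inv]
      exact Subtype.ext hgy
    rw [e]
    exact inv_mem hyB
  obtain ⟨s, hs, b, hb, h2⟩ := Cfsg.Agent.H610.RegularBN.exists_adjacent (P := P) hyB h1 hgB'
  rw [hPS] at hs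
  obtain ⟨i, hi, hs⟩ := hs
  have hs' : (s : GL D.Idx F) = nG hD (D.simple i) 1 := (eq_nG_iff hD _ _ _).2 hs
  rw [hPB, Subgroup.mem_subgroupOf] at hb h2
  have h3 := (hy.conj (inv_mem hb)).2 i hi
  rw [inv_inv] at h3
  obtain ⟨t, ht, h4⟩ := h3
  apply ht
  refine comp_eq_zero_of_conj_mem hD hi h4 ?_
  rw [← hs']
  exact h2

theorem inG2 : InList chevG2 := by simp [InList]

theorem simple_G2 : chevG2.simple 0 = 7 ∧ chevG2.simple 1 = 6 ∧ chevG2.rank = 2 ∧ chevG2.IsPosRoot 10 ∧
    chevG2.IsPosRoot 7 ∧ chevG2.IsPosRoot 6 ∧ 6 < chevG2.nroots ∧ 7 < chevG2.nroots ∧ 10 < chevG2.nroots ∧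
    rt chevG2 10 0 = 3 ∧ rt chevG2 10 1 = 1 := by decide +kernel

/-- the regular unipotent element -/
noncomputable def uu (c : F) : GL chevG2.Idx F := xG inG2 7 1 * xG inG2 6 1 * xG inG2 10 c

theorem reg_uu (c : F) : Reg inG2 (uu c) := by
  obtain ⟨s0, s1, hr, p10, p7, p6, -⟩ := simple_G2
  have hm : ∀ r t, chevG2.IsPosRoot r → xG inG2 r t ∈ chevG2.posUnipotent F := fun r t hr =>
    Subgroup.subset_closure ⟨r, t, hr, coe_xG _ _ _⟩
  refine ⟨mul_mem (mul_mem (hm _ _ p7) (hm _ _ p6)) (hm _ _ p10), fun i hi => ⟨1, one_ne_zero, ?_⟩⟩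
  have h0 : (0 : ℕ) < chevG2.rank := by rw [hr]; norm_num
  have h1 : (1 : ℕ) < chevG2.rank := by rw [hr]; norm_num
  rw [hr] at hi
  unfold uu
  interval_cases i
  · have := comp_mul inG2 h0 (comp_mul inG2 h0 (comp_simple inG2 0 (1 : F))
      (comp_simple_ne inG2 h0 h1 (by norm_num) (1 : F))) (comp_root inG2 p10 (by rw [s0]; norm_num) c)
    rwa [s0, s1, add_zero, add_zero] at this
  · have := comp_mul inG2 h1 (comp_mul inG2 h1 (comp_simple_ne inG2 h1 h0 (by norm_num) (1 : F))
      (comp_simple inG2 1 (1 : F))) (comp_root inG2 p10 (by rw [s1]; norm_num) c)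
    rwa [s0, s1, zero_add, add_zero] at this

/-- **A non-real element of `G₂(3^a)`.** -/
theorem nrel_three [Finite F] [CharP F 3] : Cfsg.Agent.H721.SR.NRel ↥(chevG2.group F) := by
  obtain ⟨c, hc⟩ : ∃ c : F, ∀ s : F, s ^ 3 - s ≠ c := by
    by_contra hc
    push Not at hc
    have hi := Finite.injective_iff_surjective.2 (fun c => hc c : Function.Surjective fun s : F => s ^ 3 - s)
    exact zero_ne_one (hi (by simp))
  obtain ⟨s0, s1, hr, p10, p7, h88⟩ := simple_G2
  revert h88; rintro ⟨p6, l6, l7, l10, r0, r1⟩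
  have hy := reg_uu (-c)
  have huG : uu (-c) ∈ chevG2.group F := posUnipotent_le_group inG2 F hy.1
  refine ⟨⟨uu (-c), huG⟩, fun hcj => ?_⟩
  obtain ⟨h, hh⟩ := isConj_iff.1 hcj
  have hh' : (h : GL chevG2.Idx F) * uu (-c) * (h : GL chevG2.Idx F)⁻¹ = (uu (-c))⁻¹ := congrArg Subtype.val hh
  have hB := mem_borel_of_inv inG2 hy h.2 hh'
  obtain ⟨v, hv, d, hd, hvd⟩ := exists_of_mem_borel inG2 hB
  obtain ⟨χ, hχ⟩ := exists_chi inG2 hd
  obtain ⟨s, r, z, w, hq⟩ := exists_q4 hv
  rw [hvd] at hh'
  have e1 : uu (-c) * v * (d * uu (-c) * d⁻¹) = v := by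
    have : v * (d * uu (-c) * d⁻¹) * v⁻¹ = (uu (-c))⁻¹ := by
      rw [← hh']
      group
    have h2 : v * (d * uu (-c) * d⁻¹) = (uu (-c))⁻¹ * v := by rw [← this]; group
    rw [mul_assoc, h2]
    group
  have e2 : d * uu (-c) * d⁻¹ = xG inG2 7 (χ 7 * 1) * xG inG2 6 (χ 6 * 1) * xG inG2 10 (χ 10 * -c) := by
    rw [← hχ.conj 7 l7, ← hχ.conj 6 l6, ← hχ.conj 10 l10, uu]
    group
  rw [e2] at e1
  have e3 := congrArg (fun g : GL chevG2.Idx F => (g : Matrix chevG2.Idx chevG2.Idx F)) e1
  simp only [uu, Units.val_mul, coe_xG] at e3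
  have q1 := ((((q4_7 (1 : F)).mul (q4_6 (1 : F))).mul (q4_10 (-c))).mul hq).mul
    (((q4_7 (χ 7 * 1)).mul (q4_6 (χ 6 * 1))).mul (q4_10 (χ 10 * -c)))
  rw [e3] at q1
  obtain ⟨a1, a2, a3, a4⟩ := q1.unique hq
  have hχ10 : χ 10 = χ 7 ^ 3 * χ 6 := by
    rw [hχ.prod 10 l10, hr, Finset.prod_range_succ, Finset.prod_range_one, s0, s1, r0, r1]
    norm_cast
    rw [pow_one]
  have x7 : χ 7 = -1 := by linear_combination a1
  have x6 : χ 6 = -1 := by linear_combination a2
  rw [hχ10, x7, x6] at a4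
  rw [x7, x6] at a3
  refine hc s ?_
  have h3 : (3 : F) = 0 := by exact_mod_cast CharP.cast_eq_zero F 3
  linear_combination a4 + a3 - c * h3

end Cfsg.Agent.H473.SR.Three

private theorem dce_6bfa84410c50 : _root_.True := by
  try have : _root_.True := by simp only [_root_.Cfsg.Agent.H473.SR.Three.uu.eq_1]
  exact _root_.True.intro
end

-- part: H473/SR/Oct
section
prune_inst 0x4400004001800018001012202020080005000000000080a0094200004000a08100400c801400020028010001000000100040400000000a0004000000000000800000a0080000000010000080000000000000000000000000000000000000000000000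
set_option linter.all false
open scoped Cfsg.Agent.FastGrp

/-!
# A non-real element of `G₂(q)`, `q` prime to 3 (helper473, S4971 / S4970)

`x = ω g`, `g` a regular unipotent element of the special unitary group over `F[ω]`, acting on the octonions. An
automorphism `f` inverting `x` induces `v ↦ A v̄` on the orthogonal space of `F[ω]`, `κ̄ det A = κ`, `g A = A gᵀ`, and
the parameter of `g` is a cube.
-/

set_option autoImplicit false

namespace Cfsg.Agent.H473.SR

open Cfsg.Lie QuadraticAlgebra Matrix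
open Cfsg.Agent.H181.OctHerm

variable {F : Type*} [Field F]

/-- the orthogonal space of `F[ω]` -/
def emb (v : Fin 3 → LL F) : AA F := (0, v 0, v 1, v 2)

theorem emb_inj {v w : Fin 3 → LL F} (h : emb v = emb w) : v = w := by
  simp only [emb, Prod.mk.injEq, true_and] at h
  obtain ⟨h0, h1, h2⟩ := h
  funext i
  fin_cases i <;> assumption

theorem act_emb (M : Matrix (Fin 3) (Fin 3) (LL F)) (v : Fin 3 → LL F) : act M (emb v) = emb (M *ᵥ v) := by
  simp only [act, emb, Matrix.mulVec, dotProduct, Fin.sum_univ_three]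

/-- scaling -/
def sO (l : LL F) (z : AA F) : AA F := (z.1, l * z.2.1, l * z.2.2.1, l * z.2.2.2)

theorem act_smul_one (l : LL F) (z : AA F) : act (l • (1 : Matrix (Fin 3) (Fin 3) (LL F))) z = sO l z := by
  simp [act, sO]

theorem eq_zero_of_three (h3 : (3 : F) ≠ 0) {a : LL F} (h : 3 * a = 0) : a = 0 := by
  have h1 : a + a + a = 0 := by linear_combination h
  have h2 := congrArg QuadraticAlgebra.re h1
  have h4 := congrArg QuadraticAlgebra.im h1
  simp only [re_add, im_add, re_zero, im_zero] at h2 h4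
  ext
  · rw [re_zero]
    exact (mul_eq_zero.1 (show (3 : F) * a.re = 0 by linear_combination h2)).resolve_left h3
  · rw [im_zero]
    exact (mul_eq_zero.1 (show (3 : F) * a.im = 0 by linear_combination h4)).resolve_left h3

theorem fst_of_sum (h3 : (3 : F) ≠ 0) {l : LL F} {z : AA F} (h : z + sO l z + sO l (sO l z) = 0) : z.1 = 0 := by
  have h1 := congrArg Prod.fst h
  simp only [sO, Prod.fst_add, Prod.fst_zero] at h1
  exact eq_zero_of_three h3 (by linear_combination h1)

section

variable (h3 : (3 : F) ≠ 0) {κ : LL F} {f : AA F ≃ₗ[F] AA F} (hf : ∀ x y, f (hm κ x y) = hm κ (f x) (f y))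
  (hs : ∀ z, f (sO om z) = sO (star om) (f z))

include hs in
theorem symm_sO (z : AA F) : f.symm (sO (star om) z) = sO om (f.symm z) := by
  rw [LinearEquiv.symm_apply_eq, hs, LinearEquiv.apply_symm_apply]

theorem sum_om (v : Fin 3 → LL F) : emb v + sO om (emb v) + sO om (sO om (emb v)) = 0 := by
  have h := om_sq (F := F)
  refine Prod.ext ?_ (Prod.ext ?_ (Prod.ext ?_ ?_)) <;>
    simp only [emb, sO, Prod.fst_add, Prod.snd_add, Prod.fst_zero, Prod.snd_zero, add_zero]
  · linear_combination (v 0) * h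
  · linear_combination (v 1) * h
  · linear_combination (v 2) * h

theorem star_om_sq : star (om : LL F) * star om = -1 - star om := by
  rw [star_om]
  linear_combination om_sq (F := F)

theorem sum_star_om (v : Fin 3 → LL F) :
    emb v + sO (star om) (emb v) + sO (star om) (sO (star om) (emb v)) = 0 := by
  have h := star_om_sq (F := F)
  refine Prod.ext ?_ (Prod.ext ?_ (Prod.ext ?_ ?_)) <;>
    simp only [emb, sO, Prod.fst_add, Prod.snd_add, Prod.fst_zero, Prod.snd_zero, add_zero]
  · linear_combination (v 0) * h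
  · linear_combination (v 1) * h
  · linear_combination (v 2) * h

theorem eq_emb {z : AA F} (h : z.1 = 0) : ∃ v : Fin 3 → LL F, z = emb v := by
  refine ⟨![z.2.1, z.2.2.1, z.2.2.2], ?_⟩
  refine Prod.ext h (Prod.ext ?_ (Prod.ext ?_ ?_)) <;> simp [emb]

include h3 hs in
theorem exists_emb (v : Fin 3 → LL F) : ∃ w, f (emb v) = emb w := by
  apply eq_emb
  apply fst_of_sum h3 (l := star om)
  have := congrArg f (sum_om v)
  rwa [map_add, map_add, map_zero, hs, hs, hs] at this

include h3 hs in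
theorem exists_emb_symm (w : Fin 3 → LL F) : ∃ v, f (emb v) = emb w := by
  obtain ⟨v, hv⟩ : ∃ v, f.symm (emb w) = emb v := by
    apply eq_emb
    apply fst_of_sum h3 (l := om)
    have := congrArg f.symm (sum_star_om w)
    rwa [map_add, map_add, map_zero, symm_sO hs, symm_sO hs, symm_sO hs] at this
  exact ⟨v, by rw [← hv, LinearEquiv.apply_symm_apply]⟩

/-- the fixed algebra -/
def cst (a : LL F) : AA F := (a, 0, 0, 0)

include h3 hs in
theorem exists_cst (a : LL F) : ∃ b, f (cst a) = cst b := by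
  have h1 : sO (om : LL F) (cst a) = cst a := by simp [sO, cst]
  have h2 := hs (cst a)
  rw [h1] at h2
  have key : ∀ w : LL F, w = star om * w → w = 0 := by
    intro w hw
    apply eq_zero_of_three h3
    rw [star_om] at hw
    linear_combination (1 - om) * hw + w * om_sq (F := F)
  refine ⟨(f (cst a)).1, Prod.ext rfl (Prod.ext ?_ (Prod.ext ?_ ?_))⟩
  · exact key _ (congrArg (fun z : AA F => z.2.1) h2)
  · exact key _ (congrArg (fun z : AA F => z.2.2.1) h2)
  · exact key _ (congrArg (fun z : AA F => z.2.2.2) h2)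

theorem hm_cst_emb (κ a : LL F) (v : Fin 3 → LL F) : hm κ (cst a) (emb v) = emb (a • v) := by
  simp only [hm, cst, emb, _root_.Fin.isValue, _root_.MulZeroClass.mul_zero, _root_.MulZeroClass.zero_mul, _root_.add_zero, _root_.star_zero, _root_.sub_self, _root_.Pi.smul_apply, _root_.smul_eq_mul]

include h3 hf hs in
theorem f_cst (a : LL F) : f (cst a) = cst (star a) := by
  obtain ⟨v, hv⟩ := exists_emb_symm h3 hs ![1, 0, 0]
  have key : ∀ a : LL F, ∀ b, f (cst a) = cst b → f (emb (a • v)) = emb (b • ![1, 0, 0]) := by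
    intro a b h
    rw [← hm_cst_emb κ, hf, h, hv, hm_cst_emb]
  have e1 : f (cst 1) = cst (1 : LL F) := by
    obtain ⟨b, hb⟩ := exists_cst h3 hs 1
    have h1 := key 1 b hb
    rw [one_smul, hv] at h1
    have h2 := congrFun (emb_inj h1) 0
    simp at h2
    rw [hb, ← h2]
  have e2 : f (cst om) = cst (star (om : LL F)) := by
    obtain ⟨b, hb⟩ := exists_cst h3 hs om
    have h1 := key om b hb
    have h4 : (emb ((om : LL F) • v) : AA F) = sO om (emb v) := by simp [emb, sO]
    rw [h4, hs, hv] at h1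
    have h2 := congrArg (fun z : AA F => z.2.1) h1
    simp [emb, sO] at h2
    rw [hb, h2]
  have e3 : cst a = a.re • cst (1 : LL F) + a.im • cst om := by
    refine Prod.ext ?_ (Prod.ext ?_ (Prod.ext ?_ ?_)) <;> simp only [cst, _root_.Prod.smul_mk, _root_.smul_zero, _root_.Prod.mk_add_mk, _root_.add_zero]
    ext <;> simp [om]
  rw [e3, map_add, map_smul, map_smul, e1, e2]
  refine Prod.ext ?_ (Prod.ext ?_ (Prod.ext ?_ ?_)) <;> simp only [cst, _root_.Prod.smul_mk, _root_.smul_zero, _root_.Prod.mk_add_mk, _root_.add_zero]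
  ext <;> simp only [om, _root_.QuadraticAlgebra.star_mk, _root_.mul_one, _root_.zero_add, _root_.QuadraticAlgebra.smul_mk, _root_.smul_eq_mul, _root_.mul_neg, _root_.QuadraticAlgebra.re_add, _root_.QuadraticAlgebra.re_smul, _root_.QuadraticAlgebra.re_one, _root_.QuadraticAlgebra.re_star, _root_.neg_mul, _root_.one_mul, _root_.QuadraticAlgebra.im_add, _root_.QuadraticAlgebra.im_smul, _root_.QuadraticAlgebra.im_one, _root_.MulZeroClass.mul_zero, _root_.QuadraticAlgebra.im_star]

include h3 hf hs in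
/-- the matrix of an automorphism inverting `ω` -/
theorem exists_matrix : ∃ A : Matrix (Fin 3) (Fin 3) (LL F), (∀ v, f (emb v) = emb (A *ᵥ star v)) ∧
    star κ * A.det = κ := by
  choose g hg using exists_emb h3 hs
  let A : Matrix (Fin 3) (Fin 3) (LL F) := Matrix.of fun i j => g (Pi.single j 1) i
  have hsm : ∀ (a : LL F) v, f (emb (a • v)) = emb (star a • g v) := by
    intro a v
    rw [← hm_cst_emb κ, hf, f_cst h3 hf hs, hg, hm_cst_emb]
  have hadd : ∀ v w : Fin 3 → LL F, (emb (v + w) : AA F) = emb v + emb w := by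
    intro v w
    simp [emb]
  have hA : ∀ v, f (emb v) = emb (A *ᵥ star v) := by
    intro v
    have e : v = v 0 • Pi.single 0 1 + v 1 • Pi.single 1 1 + v 2 • Pi.single 2 1 := by
      funext i
      (revert i; simp only [_root_.Fin.forall_fin_succ, Fin.isValue, _root_.Pi.add_apply, _root_.Pi.smul_apply, _root_.smul_eq_mul, _root_.Pi.single_eq_same, _root_.mul_one, _root_.ne_eq, _root_.zero_ne_one, _root_.not_false_eq_true, _root_.Pi.single_eq_of_ne, _root_.MulZeroClass.mul_zero, _root_.add_zero, Fin.reduceEq, _root_.Fin.succ_ne_zero, _root_.zero_add, _root_.Fin.succ_zero_eq_one, _root_.Fin.succ_one_eq_two, _root_.IsEmpty.forall_iff, _root_.and_self])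
    conv_lhs => rw [e]
    rw [hadd, hadd, map_add, map_add, hsm, hsm, hsm, ← hadd, ← hadd]
    congr 1
    funext i
    simp only [A, Matrix.mulVec, dotProduct, Fin.sum_univ_three, Matrix.of_apply, Pi.add_apply, Pi.smul_apply,
      smul_eq_mul, Pi.star_apply]
    ring
  refine ⟨A, hA, ?_⟩
  -- products
  have p1 : hm κ (emb (Pi.single 0 1)) (emb (Pi.single 1 1)) = emb (κ • Pi.single 2 1) := by
    simp [hm, emb]
  have p2 : hm κ (emb (Pi.single 2 1)) (emb (Pi.single 2 1)) = cst (1 : LL F) := by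
    simp [hm, emb, cst]
  have hcol : ∀ j, A *ᵥ star (Pi.single j 1) = fun i => A i j := by
    intro j
    funext i
    (revert j; simp only [Matrix.mulVec, dotProduct, Fin.sum_univ_three, _root_.Fin.forall_fin_succ, _root_.Pi.star_apply, Fin.isValue, _root_.Pi.single_eq_same, _root_.star_one, _root_.mul_one, _root_.ne_eq, _root_.one_ne_zero, _root_.not_false_eq_true, _root_.Pi.single_eq_of_ne, _root_.star_zero, _root_.MulZeroClass.mul_zero, _root_.add_zero, Fin.reduceEq, _root_.Fin.succ_ne_zero, _root_.Pi.single_eq_of_ne', _root_.zero_add, _root_.Fin.succ_zero_eq_one, _root_.Fin.succ_one_eq_two, _root_.IsEmpty.forall_iff, _root_.and_self])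
  have hgA : g (Pi.single 2 1) = fun i => A i 2 := rfl
  have q1 := congrArg f p1
  rw [hf, hA, hA, hsm, hcol, hcol, hgA] at q1
  have q2 := congrArg f p2
  rw [hf, hA, hcol, f_cst h3 hf hs] at q2
  simp only [hm, emb, cst, Prod.mk.injEq, mul_zero, zero_mul, zero_add, star_zero, Pi.smul_apply, smul_eq_mul,
    star_one] at q1 q2
  obtain ⟨-, r0, r1, r2⟩ := q1
  obtain ⟨r3, -⟩ := q2
  have s0 := congrArg star r0
  have s1 := congrArg star r1
  have s2 := congrArg star r2
  simp only [star_mul', star_star] at s0 s1 s2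
  rw [Matrix.det_fin_three]
  linear_combination A 0 2 * s0 + A 1 2 * s1 + A 2 2 * s2 + κ * r3

end

theorem star_mulVec' (M : Matrix (Fin 3) (Fin 3) (LL F)) (v : Fin 3 → LL F) :
    star (M *ᵥ v) = M.map star *ᵥ star v := by
  funext i
  simp only [Matrix.mulVec, dotProduct, Fin.sum_univ_three, _root_.Pi.star_apply, _root_.Fin.isValue, _root_.StarAddMonoid.star_add, _root_.star_mul', _root_.Matrix.map_apply]

theorem rel_of_inv {f : AA F ≃ₗ[F] AA F} {A M : Matrix (Fin 3) (Fin 3) (LL F)}
    (hA : ∀ v, f (emb v) = emb (A *ᵥ star v)) (hM : ∀ z, act M (f (act M z)) = f z) :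
    M * A * M.map star = A := by
  have key : ∀ w, (M * A * M.map star) *ᵥ w = A *ᵥ w := by
    intro w
    have h := hM (emb (star w))
    rw [act_emb, hA, act_emb, hA, star_mulVec', star_star] at h
    have h1 := emb_inj h
    rw [← h1, Matrix.mulVec_mulVec, Matrix.mulVec_mulVec, mul_assoc]
  ext1 i j
  have := congrFun (key (Pi.single j 1)) i
  simpa using this

/-- the nilpotent matrix -/
def NN (R : Type*) [CommRing R] (k k' w b b' : R) : Matrix (Fin 3) (Fin 3) R :=
  !![w * b * b', w * b * b' * k', -b'; w * b * b' * k, -(w * b * b'), -(b' * k); b, b * k', 0]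

section nil

variable {R : Type*} [CommRing R] {k k' w b b' : R}

attribute [-instance] instNoNatZeroDivisorsOfIsAddTorsionFree instIsCharPOfIsLeftCancelAddOfCharP in
theorem NN_sq (hk : k * k' = -1) : NN R k k' w b b' ^ 2 =
    !![-(b * b'), -(b * b') * k', 0; -(b * b') * k, b * b', 0; 0, 0, 0] := by
  rw [pow_two]
  ext i j
  (revert i j; simp only [NN, Matrix.mul_apply, Fin.sum_univ_three, _root_.Fin.forall_fin_succ, _root_.Matrix.of_apply, _root_.Matrix.cons_val', _root_.Matrix.cons_val_fin_one, Fin.isValue, _root_.Matrix.cons_val_zero, _root_.Matrix.cons_val_one, _root_.Matrix.cons_val, _root_.neg_mul, _root_.Matrix.cons_val_succ, _root_.mul_neg, _root_.MulZeroClass.mul_zero, _root_.add_zero, _root_.forall_const, _root_.neg_neg, _root_.MulZeroClass.zero_mul]) <;> grobner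

attribute [-instance] instNoNatZeroDivisorsOfIsAddTorsionFree instIsCharPOfIsLeftCancelAddOfCharP in
theorem NN_cube (hk : k * k' = -1) : NN R k k' w b b' ^ 3 = 0 := by
  rw [pow_succ, NN_sq hk]
  ext i j
  (revert i j; simp only [NN, Matrix.mul_apply, Fin.sum_univ_three, _root_.Fin.forall_fin_succ, _root_.neg_mul, _root_.Matrix.of_apply, _root_.Matrix.cons_val', _root_.Matrix.cons_val_fin_one, Fin.isValue, _root_.Matrix.cons_val_zero, _root_.Matrix.cons_val_one, _root_.Matrix.cons_val, _root_.Matrix.zero_apply, _root_.Matrix.cons_val_succ, _root_.mul_neg, _root_.MulZeroClass.mul_zero, _root_.add_zero, _root_.forall_const, _root_.MulZeroClass.zero_mul, _root_.neg_neg, _root_.neg_zero, _root_.and_self, _root_.implies_true, _root_.and_true]) <;> grobner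

attribute [-instance] instNoNatZeroDivisorsOfIsAddTorsionFree instIsCharPOfIsLeftCancelAddOfCharP in
theorem det_NN (hk : k * k' = -1) : (1 + NN R k k' w b b').det = 1 := by
  rw [Matrix.det_fin_three]
  simp only [NN, _root_.Fin.isValue, _root_.Matrix.add_apply, _root_.Matrix.one_apply_eq, _root_.Matrix.of_apply, _root_.Matrix.cons_val', _root_.Matrix.cons_val_zero, _root_.Matrix.cons_val_fin_one, _root_.Matrix.cons_val_one, _root_.Matrix.cons_val, _root_.add_zero, _root_.mul_one, _root_.ne_eq, _root_.Fin.reduceEq, _root_.not_false_eq_true, _root_.Matrix.one_apply_ne, _root_.zero_add, _root_.mul_neg, _root_.neg_mul, _root_.sub_neg_eq_add, _root_.zero_ne_one, _root_.one_ne_zero]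
  grobner

attribute [-instance] instNoNatZeroDivisorsOfIsAddTorsionFree instIsCharPOfIsLeftCancelAddOfCharP in
/-- unitarity -/
theorem NN_unit (hk : k * k' = -1) {w' : R} (hw : w + w' = -1) :
    !![1 + w' * b * b', w' * b * b' * k', b'; w' * b * b' * k, 1 - w' * b * b', b' * k; -b, -(b * k'), 1] *
      (1 + NN R k k' w b b') = 1 := by
  ext i j
  fin_cases i <;> fin_cases j <;> simp only [NN, Matrix.mul_apply, Fin.sum_univ_three, _root_.Fin.zero_eta, _root_.Fin.isValue, _root_.Matrix.of_apply, _root_.Matrix.cons_val', _root_.Matrix.cons_val_fin_one, _root_.Matrix.cons_val_zero, _root_.Matrix.add_apply, _root_.Matrix.one_apply_eq, _root_.Matrix.cons_val_one, _root_.ne_eq, _root_.one_ne_zero, _root_.not_false_eq_true, _root_.Matrix.one_apply_ne, _root_.zero_add, _root_.Matrix.cons_val, _root_.Fin.reduceEq, _root_.Fin.mk_one, _root_.zero_ne_one, _root_.Fin.reduceFinMk, _root_.mul_neg, _root_.add_zero, _root_.mul_one, _root_.neg_mul, _root_.one_mul, _root_.neg_neg, _root_.add_eq_right]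 <;> grobner

theorem det_hankel (x y z : R) : (!![x, y, z; y, z, 0; z, 0, 0] : Matrix (Fin 3) (Fin 3) R).det = -z ^ 3 := by
  rw [Matrix.det_fin_three]
  simp
  ring

/-- **The cube.** -/
theorem sq_eq_cube (hk : k * k' = -1) {A : Matrix (Fin 3) (Fin 3) R} (hd : k' * A.det = k)
    (hNA : NN R k k' w b b' * A = A * (NN R k k' w b b')ᵀ) : ∃ l : R, (b * b' ^ 2) ^ 2 = l ^ 3 := by
  set N := NN R k k' w b b' with hN
  let Q : Matrix (Fin 3) (Fin 3) R :=
    !![1, 0, 0; w * b * b', w * b * b' * k', -b'; -(b * b'), -(b * b') * k', 0]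
  have hQ : ∀ i j : Fin 3, Q i j = (N ^ (i : ℕ)) 0 j := by
    intro i j
    fin_cases i
    · (revert j; simp only [Q, _root_.Fin.forall_fin_succ, _root_.neg_mul, _root_.Fin.zero_eta, Fin.isValue, _root_.Matrix.of_apply, _root_.Matrix.cons_val', _root_.Matrix.cons_val_fin_one, _root_.Matrix.cons_val_zero, _root_.pow_zero, _root_.Matrix.one_apply_eq, _root_.Matrix.cons_val_succ, _root_.Fin.succ_zero_eq_one, _root_.ne_eq, _root_.zero_ne_one, _root_.not_false_eq_true, _root_.Matrix.one_apply_ne, _root_.Fin.succ_one_eq_two, Fin.reduceEq, _root_.IsEmpty.forall_iff, _root_.and_self])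
    · (revert j; simp [Q, hN, NN, _root_.Fin.forall_fin_succ])
    · change Q 2 j = (N ^ 2) 0 j
      rw [hN, NN_sq hk]
      (revert j; simp [Q, _root_.Fin.forall_fin_succ])
  have hpow : ∀ m : ℕ, A * (Nᵀ) ^ m = N ^ m * A := by
    intro m
    induction m with
    | zero => simp
    | succ m ih => rw [pow_succ, ← mul_assoc, ih, mul_assoc, ← hNA, ← mul_assoc, ← pow_succ]
  have hG : ∀ i j : Fin 3, (Q * A * Qᵀ) i j = (N ^ ((i : ℕ) + (j : ℕ)) * A) 0 0 := by
    intro i j
    have h1 : (Q * A * Qᵀ) i j = (N ^ (i : ℕ) * A * (N ^ (j : ℕ))ᵀ) 0 0 := by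
      simp only [Matrix.mul_apply, Matrix.transpose_apply, hQ]
    rw [h1, Matrix.transpose_pow, mul_assoc, hpow, ← mul_assoc, ← pow_add]
  have h3 : N ^ 3 = 0 := NN_cube hk
  have hG' : Q * A * Qᵀ = !![(N ^ 0 * A) 0 0, (N ^ 1 * A) 0 0, (N ^ 2 * A) 0 0;
      (N ^ 1 * A) 0 0, (N ^ 2 * A) 0 0, 0; (N ^ 2 * A) 0 0, 0, 0] := by
    ext i j
    rw [hG]
    have h4 : N ^ 4 = 0 := by rw [pow_succ, h3, zero_mul]
    (revert i j; simp only [h3, h4, _root_.Fin.forall_fin_succ, Fin.isValue, _root_.pow_zero, _root_.one_mul, _root_.pow_one, _root_.Matrix.of_apply, _root_.Matrix.cons_val', _root_.Matrix.cons_val_fin_one, _root_.Fin.coe_ofNat_eq_mod, _root_.Nat.zero_mod, _root_.add_zero, _root_.Matrix.cons_val_zero, _root_.Fin.val_succ, _root_.Matrix.cons_val_succ, _root_.zero_add, _root_.Fin.val_eq_zero, Nat.reduceAdd, _root_.forall_const, _root_.and_self, _root_.MulZeroClass.zero_mul, _root_.Matrix.zero_apply, _root_.implies_true])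
  have h5 := congrArg Matrix.det hG'
  rw [Matrix.det_mul, Matrix.det_mul, Matrix.det_transpose] at h5
  have h6 : Q.det = -(b * b' ^ 2 * k') := by
    rw [Matrix.det_fin_three]
    simp only [Q, _root_.neg_mul, _root_.Fin.isValue, _root_.Matrix.of_apply, _root_.Matrix.cons_val', _root_.Matrix.cons_val_zero, _root_.Matrix.cons_val_fin_one, _root_.Matrix.cons_val_one, _root_.one_mul, _root_.Matrix.cons_val, _root_.MulZeroClass.mul_zero, _root_.mul_neg, _root_.neg_neg, _root_.zero_sub, _root_.MulZeroClass.zero_mul, _root_.sub_zero, _root_.neg_zero, _root_.add_zero, _root_.neg_inj]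
    ring
  rw [h6, det_hankel] at h5
  refine ⟨(N ^ 2 * A) 0 0, ?_⟩
  have h7 : A.det = -k ^ 2 := by linear_combination (-k) * hd + A.det * hk
  rw [h7] at h5
  linear_combination -h5 + (b * b' ^ 2) ^ 2 * (1 - k * k') * hk

end nil

open Cfsg.Agent.H181.OctHerm in
/-- the regular unipotent element -/
def gg (κ b : LL F) : Matrix (Fin 3) (Fin 3) (LL F) := 1 + NN (LL F) κ (star κ) om b (star b)

theorem star_gg (κ b : LL F) : star (gg κ b) =
    !![1 + star om * b * star b, star om * b * star b * star κ, star b;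
      star om * b * star b * κ, 1 - star om * b * star b, star b * κ; -b, -(b * star κ), 1] := by
  rw [Matrix.star_eq_conjTranspose]
  ext1 i j
  rw [Matrix.conjTranspose_apply]
  fin_cases i <;> fin_cases j <;> simp only [gg, NN] <;> simp only [_root_.Fin.zero_eta, _root_.Fin.isValue, _root_.Matrix.add_apply, _root_.Matrix.one_apply_eq, _root_.Matrix.of_apply, _root_.Matrix.cons_val', _root_.Matrix.cons_val_zero, _root_.Matrix.cons_val_fin_one, _root_.StarAddMonoid.star_add, _root_.star_one, _root_.star_mul', _root_.star_star, _root_.add_right_inj, _root_.Fin.mk_one, _root_.Nat.reduceAdd, _root_.ne_eq, _root_.one_ne_zero, _root_.not_false_eq_true, _root_.Matrix.one_apply_ne, _root_.Matrix.cons_val_one, _root_.zero_add, _root_.Fin.reduceFinMk, _root_.Fin.reduceEq, _root_.Matrix.cons_val, _root_.zero_ne_one, _root_.star_neg, _root_.add_zero] <;> ring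

theorem star_gg_mul {κ : LL F} (hκ : κ * star κ = -1) (b : LL F) : star (gg κ b) * gg κ b = 1 := by
  rw [star_gg]
  exact NN_unit hκ (by rw [star_om]; ring)

/-- an automorphism inverting `ω g` -/
theorem exists_cube (h3 : (3 : F) ≠ 0) {κ : LL F} (hκ : κ * star κ = -1) {b : LL F} {f : AA F ≃ₗ[F] AA F}
    (hf : ∀ x y, f (hm κ x y) = hm κ (f x) (f y)) (hs : ∀ z : AA F, f (sO om z) = sO (star om) (f z))
    (hM : ∀ z, act ((om : LL F) • gg κ b) (f (act ((om : LL F) • gg κ b) z)) = f z) :
    ∃ l : LL F, (b * star b ^ 2) ^ 2 = l ^ 3 := by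
  obtain ⟨A, hA, hd⟩ := exists_matrix h3 hf hs
  have h1 := rel_of_inv hA hM
  have hom : (om : LL F) * star om = 1 := (Unitary.mem_iff.1 om_mem).2
  have h2 : gg κ b * A * (gg κ b).map star = A := by
    have h4 : ((om : LL F) • gg κ b).map star = star (om : LL F) • (gg κ b).map star := by
      ext1 i j
      simp only [_root_.Matrix.map_apply, _root_.Matrix.smul_apply, _root_.smul_eq_mul, _root_.star_mul']
    rw [h4, Matrix.smul_mul, Matrix.smul_mul, Matrix.mul_smul, smul_smul, hom, one_smul] at h1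
    exact h1
  have h5 : (gg κ b).map star * (gg κ b)ᵀ = 1 := by
    have h6 : gg κ b * star (gg κ b) = 1 := mul_eq_one_comm.1 (star_gg_mul hκ b)
    have h7 := congrArg Matrix.transpose h6
    rw [Matrix.transpose_mul, Matrix.transpose_one] at h7
    exact h7
  have h8 : gg κ b * A = A * (gg κ b)ᵀ := by
    calc gg κ b * A = gg κ b * A * ((gg κ b).map star * (gg κ b)ᵀ) := by rw [h5, mul_one]
      _ = A * (gg κ b)ᵀ := by rw [← mul_assoc, h2]
  have h9 : NN (LL F) κ (star κ) om b (star b) * A = A * (NN (LL F) κ (star κ) om b (star b))ᵀ := by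
    unfold gg at h8
    rw [add_mul, one_mul, Matrix.transpose_add, Matrix.transpose_one, mul_add, mul_one] at h8
    exact add_left_cancel h8
  exact sq_eq_cube hκ hd h9

/-! ### Existence of a parameter -/

/-- a finite ring with a nontrivial cube root of one has an element which is not a cube -/
theorem exists_noncube {R : Type*} [CommRing R] [Finite R] {w : R} (hw : w ^ 3 = 1) (h1 : w ≠ 1) :
    ∃ c : R, ∀ m : R, m ^ 3 ≠ c := by
  by_contra hc
  push Not at hc
  have hi := Finite.injective_iff_surjective.2 (fun c => hc c : Function.Surjective fun m : R => m ^ 3)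
  exact h1 (hi (by simp [hw]))

theorem exists_b [Finite F] (h3 : (3 : F) ≠ 0) : ∃ b : LL F, ¬ ∃ l : LL F, (b * star b ^ 2) ^ 2 = l ^ 3 := by
  by_cases hr : ∃ r : F, r * r = -1 - r
  · obtain ⟨r, hr⟩ := hr
    have hr3 : r ^ 3 = 1 := by linear_combination (r - 1) * hr
    have hr1 : r ≠ 1 := by
      rintro rfl
      apply h3
      linear_combination hr
    obtain ⟨c, hc⟩ := exists_noncube hr3 hr1
    have hc0 : c ≠ 0 := fun h => hc 0 (by rw [h]; ring)
    have h5 : (2 * r + 1) * (2 * r + 1) = -3 := by linear_combination 4 * hr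
    have h6 : 2 * r + 1 ≠ 0 := by
      intro h
      rw [h] at h5
      apply h3
      linear_combination h5
    refine ⟨⟨c - (c - 1) / (2 * r + 1) * r, (c - 1) / (2 * r + 1)⟩, ?_⟩
    rintro ⟨l, hl⟩
    set i := (c - 1) / (2 * r + 1) with hi
    have hi' : i * (2 * r + 1) = c - 1 := div_mul_cancel₀ _ h6
    let φ : LL F → F := fun a => a.re + a.im * r
    have hφ : ∀ a b : LL F, φ (a * b) = φ a * φ b := by
      intro a b
      simp only [φ, re_mul, im_mul]
      linear_combination (-a.im * b.im) * hr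
    have hφ1 : φ ⟨c - i * r, i⟩ = c := by
      simp only [φ]
      ring
    have hφ2 : φ (star ⟨c - i * r, i⟩) = 1 := by
      simp only [φ, re_star, im_star]
      linear_combination -hi'
    have h7 := congrArg φ hl
    rw [pow_two, pow_two, pow_succ, pow_two, hφ, hφ, hφ, hφ, hφ, hφ1, hφ2] at h7
    have h8 : φ l ≠ 0 := by
      intro h
      rw [h] at h7
      apply hc0
      have : c * c = 0 := by linear_combination h7
      simpa using this
    apply hc (c / φ l)
    field_simp
    linear_combination h7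
  · push Not at hr
    have hF : Fact (∀ r : F, r ^ 2 ≠ -1 + -1 * r) := ⟨fun r h => hr r (by linear_combination h)⟩
    have hfin : Finite (LL F) := by
      have : Function.Injective (fun a : LL F => (a.re, a.im)) := by
        intro a b h
        simp only [Prod.mk.injEq] at h
        exact QuadraticAlgebra.ext h.1 h.2
      exact Finite.of_injective _ this
    obtain ⟨y, hy⟩ := exists_noncube (R := LL F) (w := om) (by linear_combination om_cube (F := F)) om_ne_one
    have hy0 : y ≠ 0 := fun h => hy 0 (by rw [h]; ring)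
    have hinj : Function.Injective fun m : F => m ^ 3 := by
      intro a b h
      simp only at h
      by_contra hab
      have h1 : (a - b) * (a ^ 2 + a * b + b ^ 2) = 0 := by linear_combination h
      have h2 := (mul_eq_zero.1 h1).resolve_left (sub_ne_zero.2 hab)
      have hb : b ≠ 0 := by
        rintro rfl
        apply hab
        have : a ^ 2 = 0 := by linear_combination h2
        simpa using this
      apply hr (a / b)
      field_simp
      linear_combination h2
    have hsur := Finite.injective_iff_surjective.1 hinj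
    obtain ⟨m, hm⟩ := hsur (QuadraticAlgebra.norm y)
    refine ⟨star y, ?_⟩
    rintro ⟨l, hl⟩
    rw [star_star] at hl
    have h1 : y * star y = (algebraMap F (LL F) m) ^ 3 := by
      rw [← map_pow]
      simp only at hm
      rw [hm, QuadraticAlgebra.algebraMap_norm_eq_mul_star]
    set M := algebraMap F (LL F) m with hM
    have hs0 : star y ≠ 0 := by
      intro h
      apply hy0
      rw [← star_star y, h, star_zero]
    have hM0 : M ≠ 0 := by
      intro h
      rw [h] at h1
      exact mul_ne_zero hy0 hs0 (by rw [h1]; ring)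
    have h2 : (y * M ^ 3) ^ 2 = l ^ 3 := by rw [← h1, ← hl]; ring
    have hl0 : l ≠ 0 := by
      intro h
      rw [h] at h2
      exact pow_ne_zero 2 (mul_ne_zero hy0 (pow_ne_zero 3 hM0)) (by rw [h2]; ring)
    apply hy (y * M ^ 2 / l)
    field_simp
    linear_combination h2

/-! ### The group -/

/-- the matrix `ω g` in the special unitary group -/
def xx {κ : LL F} (hκ : κ * star κ = -1) (b : LL F) : SU F :=
  ⟨⟨(om : LL F) • gg κ b, by
    rw [Matrix.mem_unitaryGroup_iff']
    have hom : star (om : LL F) * om = 1 := (Unitary.mem_iff.1 om_mem).1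
    have h4 : star ((om : LL F) • gg κ b) = star (om : LL F) • star (gg κ b) := by
      ext1 i j
      simp only [Matrix.star_eq_conjTranspose, _root_.Matrix.star_apply, _root_.Matrix.smul_apply, _root_.smul_eq_mul, _root_.star_mul', _root_.Matrix.conjTranspose_apply]
    rw [h4, Matrix.smul_mul, Matrix.mul_smul, smul_smul, hom, one_smul, star_gg_mul hκ]⟩, by
    rw [mem_SU]
    change ((om : LL F) • gg κ b).det = 1
    rw [Matrix.det_smul, Fintype.card_fin]
    unfold gg
    rw [det_NN hκ, mul_one]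
    linear_combination om_cube (F := F)⟩

theorem xx_pow {κ : LL F} (hκ : κ * star κ = -1) (b : LL F) {p : ℕ} [hp : Fact p.Prime] [hc : CharP F p]
    (hp3 : p ≠ 3) : ((om : LL F) • gg κ b) ^ (p ^ 2) = (om : LL F) • 1 := by
  have hc' : CharP (LL F) p := charP_of_injective_ringHom (f := algebraMap F (LL F)) (RingHom.injective _) p
  have h1 : gg κ b ^ (p ^ 2) = 1 := by
    unfold gg
    rw [add_pow_expChar_pow_of_commute _ _ (Commute.one_left _), one_pow]
    have h2 : NN (LL F) κ (star κ) om b (star b) ^ (p ^ 2) = 0 :=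
      pow_eq_zero_of_le (m := 3) (by have := hp.out.two_le; nlinarith) (NN_cube hκ)
    rw [h2, add_zero]
  rw [smul_pow, h1]
  congr 1
  have h3 : p ^ 2 % 3 = 1 := by
    have h4 : ¬ 3 ∣ p := fun h => hp3 ((Nat.prime_dvd_prime_iff_eq Nat.prime_three hp.out).1 h).symm
    have h5 : p % 3 = 1 ∨ p % 3 = 2 := by omega
    rcases h5 with h5 | h5 <;> simp [Nat.pow_mod, h5]
  have h6 : (om : LL F) ^ 3 = 1 := by linear_combination om_cube (F := F)
  rw [← Nat.div_add_mod (p ^ 2) 3, h3, pow_add, pow_mul, h6, one_pow, one_mul, pow_one]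

/-- **Some element of the automorphism group of the octonions is not real** (characteristic not 3). -/
theorem nrel_GG [Finite F] (h3 : (3 : F) ≠ 0) {κ : LL F} (hκ : κ * star κ = -1) :
    Cfsg.Agent.H721.SR.NRel ↥(GG κ) := by
  obtain ⟨p, hc⟩ := CharP.exists F
  have hp : Fact p.Prime := ⟨CharP.char_is_prime F p⟩
  have hp3 : p ≠ 3 := by
    rintro rfl
    exact h3 (by have := CharP.cast_eq_zero F 3; exact_mod_cast this)
  obtain ⟨b, hb⟩ := exists_b h3
  refine ⟨rho κ (xx hκ b), fun hcj => hb ?_⟩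
  obtain ⟨h, hh⟩ := isConj_iff.1 hcj
  have key : ∀ m : ℕ, (rho κ (xx hκ b)) ^ m * h * (rho κ (xx hκ b)) ^ m = h := by
    intro m
    have h1 : h * (rho κ (xx hκ b)) ^ m * h⁻¹ = ((rho κ (xx hκ b)) ^ m)⁻¹ := by
      rw [← conj_pow, hh, inv_pow]
    rw [mul_assoc, ← eq_inv_mul_iff_mul_eq, ← h1]
    group
  have hM : ∀ z, act ((om : LL F) • gg κ b) (h.1 (act ((om : LL F) • gg κ b) z)) = h.1 z := by
    intro z
    have h1 := key 1
    rw [pow_one] at h1
    exact congrArg (fun u : GG κ => u.1 z) h1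
  have hN : ∀ z, sO om (h.1 (sO om z)) = h.1 z := by
    intro z
    have h1 := key (p ^ 2)
    rw [← map_pow] at h1
    have h2 := congrArg (fun u : GG κ => u.1 z) h1
    have h4 : ∀ z, (rho κ (xx hκ b ^ p ^ 2) : AA F ≃ₗ[F] AA F) z = sO om z := by
      intro z
      rw [rho_apply, ← act_smul_one]
      congr 1
      exact xx_pow hκ b hp3
    change (rho κ (xx hκ b ^ p ^ 2) : AA F ≃ₗ[F] AA F) (h.1 ((rho κ (xx hκ b ^ p ^ 2) : AA F ≃ₗ[F] AA F) z)) =
      h.1 z at h2
    rw [h4, h4] at h2
    exact h2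
  refine exists_cube h3 hκ h.2 (fun z => ?_) hM
  have h1 := congrArg (sO (star om)) (hN z)
  rw [← h1]
  have hom : star (om : LL F) * om = 1 := (Unitary.mem_iff.1 om_mem).1
  have h2 : ∀ w : LL F, star om * (om * w) = w := fun w => by rw [← mul_assoc, hom, one_mul]
  simp only [sO, h2]

end Cfsg.Agent.H473.SR

private theorem dce_e571038aa1dd : _root_.True := by
  try have : _root_.True := by simp only [_root_.Cfsg.Agent.H473.SR.NN.eq_1]
  try have : _root_.True := by simp only [_root_.Cfsg.Agent.H473.SR.sO.eq_1]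
  try have : _root_.True := by simp only [_root_.Cfsg.Agent.H473.SR.cst.eq_1]
  try have : _root_.True := by simp only [_root_.Cfsg.Agent.H473.SR.gg.eq_1]
  try have : _root_.True := by simp only [_root_.Cfsg.Agent.H473.SR.emb.eq_1]
  try have : _root_.True := by simp only [_root_.Cfsg.Agent.H473.SR.xx.congr_simp]
  exact _root_.True.intro
end

-- part: H473/SR/Row
section
set_option linter.all false
open scoped Cfsg.Agent.FastGrp

/-!
# The row `G₂(q)` of S4971 / S4970 (helper473)
-/

set_option autoImplicit false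

namespace Cfsg.Agent.H473.SR

open Cfsg.Lie Cfsg.Agent.H721.SR

/-- **`G₂(q)` has a non-real element.** -/
theorem nrel_g2 (F : Type*) [Field F] [Finite F] : NRel ↥(chevG2.group F) := by
  by_cases h3 : (3 : F) = 0
  · have hc : CharP F 3 := by
      obtain ⟨p, hc⟩ := CharP.exists F
      have h1 : p ∣ 3 := (CharP.cast_eq_zero_iff F p 3).1 (by exact_mod_cast h3)
      have h2 : p = 3 := (Nat.prime_dvd_prime_iff_eq (CharP.char_is_prime F p) Nat.prime_three).1 h1
      rwa [h2] at hc
    exact Three.nrel_three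
  · obtain ⟨κ, hκ⟩ := Cfsg.Agent.H181.OctHerm.exists_kappa (F := F) h3
    obtain ⟨e⟩ := Cfsg.Agent.H181.OctHerm.nonempty_equiv h3 κ hκ
    obtain ⟨f⟩ := Cfsg.Agent.H638.G2Iso.equiv (F := F)
    exact (nrel_GG h3 hκ).congr (e.symm.trans f)

/-- **S4971 / S4970, the row of `G₂(q)`.** -/
theorem rr_g2 {S : Type*} [Group S] (h : IsoChevG2 S) : RR S := by
  obtain ⟨F, _, _, -, ⟨e⟩⟩ := h
  exact RR.of_nrel ((nrel_g2 F).congr e.symm)

end Cfsg.Agent.H473.SR
end

-- part: H29/RuR
section
prune_inst 0x4004400004002000000009201203c66c6000492004b0000d1a0074206865c6140802660f8303e108308a83540390040000000c9404000000e000600011800a0808042882340010426001f80b883180c00000000000000000000000000041004000000000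
set_option linter.all false
open scoped Cfsg.Agent.FastGrp

set_option autoImplicit false

/-!
# The Rudvalis group has a non-real element (of order 16)

The trace of an element of `fourRu` (computed on the frame `4 e_q`) is a class function, `T f⁻¹ = star (T f)`, and
`i` is not in the commutator subgroup since the Schur multiplier of the Rudvalis group has order 2.
-/

namespace Cfsg.Agent.H29.RuR

open Cfsg.Spor Cfsg.Agent.RuLat

/-- the frame vectors `4 e_q` -/
def fr (q : RuIdx) : RuVec := fun r => if r = q then 4 else 0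

/-- number of the index -/
def qi (q : RuIdx) : Fin 28 := ⟨cn q, by unfold cn; omega⟩

theorem fr_eq : ∀ q r : RuIdx, decv (ent FL (qi q)).2.2.1 (ent FL (qi q)).2.2.2 r = fr q r := by
  decide +kernel

theorem fr_eq' (q : RuIdx) : decv (ent FL (qi q)).2.2.1 (ent FL (qi q)).2.2.2 = fr q := funext fun r => fr_eq q r

theorem ent_mem' (Y : Hyp) {l : List (ℕ × ℕ × ℕ × ℕ)} (hl : l.length = 28) (ho : allT l okEnt = true) (j : Fin 28) :
    decv (ent l j).2.2.1 (ent l j).2.2.2 ∈ ruLattice := by
  have h := allT_spec ho _ (ent_mem hl j)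
  rw [okEnt_vec h]
  exact smul_mem _ (Y.mem ⟨_, okEnt_lt h⟩)

theorem gram2 {l m l' m' : List (ℕ × ℕ × ℕ × ℕ)} (hl : l.length = 28) (hm : m.length = 28) (hl' : l'.length = 28)
    (hm' : m'.length = 28) (h : okGram2 l m l' m' = true) (j k : Fin 28) :
    herm (decv (ent l j).2.2.1 (ent l j).2.2.2) (decv (ent l' k).2.2.1 (ent l' k).2.2.2) =
      herm (decv (ent m j).2.2.1 (ent m j).2.2.2) (decv (ent m' k).2.2.1 (ent m' k).2.2.2) := by
  have h0 : allT (l.zip m) (fun z => allT (l'.zip m') (pairEq z)) = true := h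
  have h1 : pairEq (ent l j, ent m j) (ent l' k, ent m' k) = true :=
    allT_spec (allT_spec h0 _ (zip_mem hl hm j)) _ (zip_mem hl' hm' k)
  have h2 := pairEq_sound h1
  dsimp only at h2
  exact h2

theorem fr_mem (Y : Hyp) (q : RuIdx) : fr q ∈ ruLattice := by
  rw [← fr_eq']
  exact ent_mem' Y rfl okFL _

theorem LB_eq (j : Fin 28) : decv (ent LB j).2.2.1 (ent LB j).2.2.2 = vec (bl j) := by
  rw [okEnt_vec (allT_spec okLB _ (ent_mem rfl j)), exp_LB, pow_zero, one_smul]
  rfl

/-- the element `G` -/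
theorem exists_G (Y : Hyp) (S : Span bl) : ∃ g : fourRu, ∀ q : RuIdx,
    ((g.1 ⟨fr q, fr_mem Y q⟩ : ruLattice) : RuVec) = decv (ent FG (qi q)).2.2.1 (ent FG (qi q)).2.2.2 := by
  obtain ⟨g, hg1, hg2⟩ := exists_lift (ι := RuIdx ⊕ Fin 28) (Sum.elim fr (fun j => vec (bl j)))
    (Sum.elim (fun q => decv (ent FG (qi q)).2.2.1 (ent FG (qi q)).2.2.2)
      (fun j => decv (ent LG j).2.2.1 (ent LG j).2.2.2))
    (by
      rintro (q | j)
      · exact fr_mem Y q
      · exact Y.mem (bl j))
    (by
      rintro (q | j)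
      · exact ent_mem' Y rfl okFG _
      · exact ent_mem' Y rfl okLG _)
    (by
      intro x hx
      obtain ⟨c, hc⟩ := S.span x hx
      refine ⟨Sum.elim (fun _ => 0) c, ?_⟩
      rw [Fintype.sum_sum_type]
      simp only [Sum.elim_inl, Sum.elim_inr, zero_smul, Finset.sum_const_zero, zero_add]
      exact hc)
    (by
      rintro (q | j) (r | k)
      · simp only [Sum.elim_inl]
        rw [gram2 rfl rfl rfl rfl okFF, fr_eq', fr_eq']
      · simp only [Sum.elim_inl, Sum.elim_inr]
        rw [gram2 rfl rfl rfl rfl okFB, fr_eq', LB_eq]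
      · simp only [Sum.elim_inl, Sum.elim_inr]
        rw [← star_herm, gram2 rfl rfl rfl rfl okFB, fr_eq', LB_eq, star_herm]
      · simp only [Sum.elim_inr]
        rw [gram2 rfl rfl rfl rfl okBB, LB_eq, LB_eq])
  exact ⟨⟨g, hg1⟩, fun q => hg2 (Sum.inl q)⟩

theorem trace_data : ∑ q : RuIdx, decv (ent FG (qi q)).2.2.1 (ent FG (qi q)).2.2.2 q = ⟨4, 4⟩ := by
  decide +kernel

/-! ### the trace -/

variable (Y : Hyp)

/-- the matrix (times 4) -/
def A (f : fourRu) : Matrix RuIdx RuIdx GaussianInt :=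
  Matrix.of fun p q => ((f.1 ⟨fr q, fr_mem Y q⟩ : ruLattice) : RuVec) p

theorem herm_fr (x : RuVec) (q : RuIdx) : herm x (fr q) = x q * 4 := by
  unfold herm fr
  rw [Finset.sum_eq_single q]
  · rw [if_pos rfl]
    congr 1
  · intro r _ hr
    rw [if_neg hr, star_zero, mul_zero]
  · intro h
    exact absurd (Finset.mem_univ q) h

theorem expand (x : RuVec) : (4 : GaussianInt) • x = ∑ q, x q • fr q := by
  funext p
  rw [Finset.sum_apply, Finset.sum_eq_single p]
  · simp [fr, mul_comm]
  · intro q _ hq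
    simp [fr, Ne.symm hq]
  · intro h
    exact absurd (Finset.mem_univ p) h

theorem apply_eq (f : fourRu) (x : ruLattice) (p : RuIdx) :
    4 * ((f.1 x : ruLattice) : RuVec) p = ∑ q, A Y f p q * (x : RuVec) q := by
  have h1 : (f.1 ⟨(4 : GaussianInt) • (x : RuVec), smul_mem 4 x.2⟩ : RuVec) = (4 : GaussianInt) • (f.1 x : RuVec) :=
    four_smul f.2 4 x x.2
  have h2 := four_sum f.2 Finset.univ (fun q => (x : RuVec) q) fr (fr_mem Y)
  have h3 : (⟨(4 : GaussianInt) • (x : RuVec), smul_mem 4 x.2⟩ : ruLattice) =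
      ⟨∑ q, (x : RuVec) q • fr q, sum_mem' _ _ _ (fr_mem Y)⟩ := Subtype.ext (expand x)
  rw [h3, h2] at h1
  have h4 := congrFun h1 p
  rw [Finset.sum_apply] at h4
  simp only [Pi.smul_apply, smul_eq_mul] at h4
  rw [← h4]
  refine Finset.sum_congr rfl fun q _ => ?_
  rw [mul_comm]
  rfl

theorem A_mul (f g : fourRu) : A Y f * A Y g = (4 : GaussianInt) • A Y (f * g) := by
  ext1 p q
  rw [Matrix.mul_apply, Matrix.smul_apply, smul_eq_mul]
  exact (apply_eq Y f (g.1 ⟨fr q, fr_mem Y q⟩) p).symm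

theorem A_one : A Y 1 = (4 : GaussianInt) • (1 : Matrix RuIdx RuIdx GaussianInt) := by
  ext1 p q
  rw [Matrix.smul_apply, Matrix.one_apply, smul_eq_mul]
  show fr q p = _
  unfold fr
  split_ifs <;> simp

theorem A_inv (f : fourRu) : A Y f⁻¹ = (A Y f).conjTranspose := by
  ext1 p q
  rw [Matrix.conjTranspose_apply]
  have h1 := four_herm f.2 (f⁻¹.1 ⟨fr q, fr_mem Y q⟩) ⟨fr p, fr_mem Y p⟩
  have h2 : f.1 (f⁻¹.1 ⟨fr q, fr_mem Y q⟩) = ⟨fr q, fr_mem Y q⟩ := by
    show (f * f⁻¹).1 _ = _
    rw [mul_inv_cancel]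
    rfl
  rw [h2] at h1
  have h3 : herm (fr q) ((f.1 ⟨fr p, fr_mem Y p⟩ : ruLattice) : RuVec) = star (A Y f q p) * 4 := by
    rw [← star_herm, herm_fr, star_mul, mul_comm]
    congr 1
  have h4 : herm ((f⁻¹.1 ⟨fr q, fr_mem Y q⟩ : ruLattice) : RuVec) (fr p) = A Y f⁻¹ p q * 4 := herm_fr _ p
  change herm (fr q) _ = herm _ (fr p) at h1
  rw [h3, h4] at h1
  exact (mul_right_cancel₀ (by decide) h1).symm

/-- four times the trace -/
def T (f : fourRu) : GaussianInt := (A Y f).trace

theorem T_conj (h f : fourRu) : T Y (h * f * h⁻¹) = T Y f := by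
  have h1 : A Y h * A Y f * A Y h⁻¹ = (16 : GaussianInt) • A Y (h * f * h⁻¹) := by
    rw [A_mul, Matrix.smul_mul, A_mul, smul_smul]
    norm_num
  have h2 : (A Y h * A Y f * A Y h⁻¹).trace = 16 * T Y f := by
    rw [Matrix.trace_mul_comm, ← Matrix.mul_assoc, A_mul, inv_mul_cancel, A_one, smul_smul, Matrix.smul_mul,
      Matrix.one_mul, Matrix.trace_smul, smul_eq_mul]
    norm_num
    rfl
  rw [h1, Matrix.trace_smul, smul_eq_mul] at h2
  exact mul_left_cancel₀ (by decide) h2

theorem T_inv (f : fourRu) : T Y f⁻¹ = star (T Y f) := by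
  unfold T
  rw [A_inv, Matrix.trace_conjTranspose]

/-- multiplication by `i` -/
def zi : fourRu := ⟨iPerm, iPerm_mem⟩

theorem A_zi (f : fourRu) : A Y (zi * f) = gI • A Y f := by
  ext1 p q
  rfl

theorem A_zi_pow (e : ℕ) (f : fourRu) : A Y (zi ^ e * f) = gI ^ e • A Y f := by
  induction e with
  | zero => simp
  | succ e ih => rw [pow_succ', mul_assoc, A_zi, ih, smul_smul, pow_succ']

theorem T_zi_pow (e : ℕ) (f : fourRu) : T Y (zi ^ e * f) = gI ^ e * T Y f := by
  unfold T
  rw [A_zi_pow, Matrix.trace_smul, smul_eq_mul]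

theorem exists_T (S : Span bl) : ∃ g : fourRu, T Y g = ⟨4, 4⟩ := by
  obtain ⟨g, hg⟩ := exists_G Y S
  refine ⟨g, ?_⟩
  rw [← trace_data]
  unfold T Matrix.trace
  refine Finset.sum_congr rfl fun q _ => ?_
  show ((g.1 ⟨fr q, fr_mem Y q⟩ : ruLattice) : RuVec) q = _
  rw [hg q]

/-! ### the double cover -/

open Cfsg.Agent.H51.Mult Cfsg.Agent.H51.Tools

theorem center_pow {z : fourRu} (hz : z ∈ Subgroup.center fourRu) : ∃ e < 4, z = zi ^ e := by
  rw [Main.hyp.ker_eq Prep.span_bl (onto Main.hyp Prep.span_bl)] at hz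
  obtain ⟨e, he, h⟩ := Main.hyp.eq_iPow Prep.span_bl (MonoidHom.mem_ker.1 hz)
  refine ⟨e, he, h.trans (Subtype.ext ?_)⟩
  rw [Subgroup.coe_pow]
  rfl

theorem finite_four : Finite fourRu := by
  obtain ⟨hz, hcard, -⟩ := Main.main
  apply Nat.finite_of_card_ne_zero
  rw [Subgroup.card_eq_card_quotient_mul_card_subgroup (Subgroup.center fourRu), hz]
  show Nat.card Ru * 4 ≠ 0
  rw [hcard]
  norm_num

theorem perfect_Ru : commutator Ru = ⊤ := by
  obtain ⟨-, hcard, hs⟩ := Main.main
  haveI : Finite Ru := Nat.finite_of_card_ne_zero (by rw [hcard]; norm_num)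
  exact perfect_of_simple hs (by rw [hcard]; norm_num)

theorem mkc_ker : (QuotientGroup.mk' (Subgroup.center fourRu)).ker = Subgroup.center fourRu :=
  QuotientGroup.ker_mk' _

/-- `i` is not in the commutator subgroup -/
theorem even_of_mem {e : ℕ} (he : e < 4) (h : zi ^ e ∈ commutator fourRu) : e = 0 ∨ e = 2 := by
  by_contra hc
  rw [not_or] at hc
  haveI := finite_four
  have h4 : zi ^ 4 = 1 := Subtype.ext (by rw [Subgroup.coe_pow]; exact iPerm_pow_four)
  have hord : orderOf (zi ^ e) = 2 ^ (1 + 1) := by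
    haveI : Fact (Nat.Prime 2) := ⟨Nat.prime_two⟩
    apply orderOf_eq_prime_pow
    · intro h1
      rw [← pow_mul] at h1
      have h2 : (zi ^ (e * 2 ^ 1) : fourRu) = zi ^ 2 := by
        rcases (by omega : e = 1 ∨ e = 3) with rfl | rfl
        · rfl
        · show zi ^ (4 + 2) = zi ^ 2
          rw [pow_add, h4, one_mul]
      rw [h2] at h1
      have h3 : iPerm ^ 2 = iPerm ^ 0 := by
        have h5 := congrArg Subtype.val h1
        rw [Subgroup.coe_pow] at h5
        exact h5
      exact absurd (iPow_inj Main.hyp (by norm_num) (by norm_num) h3) (by norm_num)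
    · rw [← pow_mul, mul_comm, pow_mul]
      show (zi ^ 4) ^ e = 1
      rw [h4, one_pow]
  obtain ⟨L, _, _, π, hπ, hd⟩ := exists_cover (q := QuotientGroup.mk' (Subgroup.center fourRu))
    (QuotientGroup.mk'_surjective _) mkc_ker.le perfect_Ru (n := 4) h
    ((QuotientGroup.eq_one_iff _).2 (Subgroup.pow_mem _ (by
      rw [Subgroup.mem_center_iff]
      intro g
      exact Subtype.ext (iPerm_comm g.2)) e)) (by rw [hord]; norm_num)
  exact Cfsg.Agent.KFacts.RuDbl.One.oneCover_spor.not_four_dvd hπ.perf hπ.surj hπ.cen hd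

theorem gI_sq : gI ^ 2 = -1 := by rw [pow_two, gI_mul_self]

/-- an element conjugate to its inverse modulo scalars has `T = ± star T` -/
theorem T_of_real {f : fourRu} (h : IsConj (QuotientGroup.mk' (Subgroup.center fourRu) f)
    (QuotientGroup.mk' (Subgroup.center fourRu) f)⁻¹) :
    T Main.hyp f = star (T Main.hyp f) ∨ T Main.hyp f = -star (T Main.hyp f) := by
  obtain ⟨x, hx⟩ := isConj_iff.1 h
  clear h
  obtain ⟨h, rfl⟩ := QuotientGroup.mk'_surjective _ x
  obtain ⟨d, hd, z, hz, rfl⟩ := exists_factor (q := QuotientGroup.mk' (Subgroup.center fourRu))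
    (QuotientGroup.mk'_surjective _) perfect_Ru f
  obtain ⟨a, -, rfl⟩ := center_pow (mkc_ker.le (MonoidHom.mem_ker.2 hz))
  have hzc : ∀ (k : ℕ) (g : fourRu), zi ^ k * g = g * zi ^ k := fun k g => by
    have h1 : Commute zi g := (Subtype.ext (iPerm_comm g.2) : g * zi = zi * g).symm
    exact (h1.pow_left k).eq
  rw [map_mul, hz, mul_one, ← map_mul, ← map_inv, ← map_inv, ← map_mul] at hx
  have h1 : h * d * h⁻¹ * d ∈ Subgroup.center fourRu := by
    apply mkc_ker.le
    rw [MonoidHom.mem_ker, map_mul, hx, ← map_mul, inv_mul_cancel, map_one]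
  obtain ⟨e, he, h2⟩ := center_pow h1
  have h3 : zi ^ e ∈ commutator fourRu := by
    rw [← h2]
    exact mul_mem ((inferInstance : (commutator fourRu).Normal).conj_mem d hd h) hd
  have h4 : h * d * h⁻¹ = zi ^ e * d⁻¹ := by rw [← h2]; group
  have h5 : T Main.hyp d = gI ^ e * star (T Main.hyp d) := by
    rw [← T_inv, ← T_zi_pow, ← h4, T_conj]
  have h6 : T Main.hyp (d * zi ^ a) = gI ^ a * T Main.hyp d := by
    rw [← hzc, T_zi_pow]
  have h7 : T Main.hyp (d * zi ^ a) = (-1) ^ a * (gI ^ e * star (T Main.hyp (d * zi ^ a))) := by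
    rw [h6, star_mul, star_pow]
    conv_lhs => rw [h5]
    rw [← gI_sq, ← pow_mul, mul_comm 2 a, pow_mul, pow_two (gI ^ a)]
    calc gI ^ a * (gI ^ e * star (T Main.hyp d))
        = (gI ^ a * star gI ^ a) * (gI ^ a * (gI ^ e * star (T Main.hyp d))) := by
          rw [gI_pow_mul_star, one_mul]
      _ = _ := by ring
  have h8 : gI ^ e = 1 ∨ gI ^ e = -1 := by
    rcases even_of_mem he h3 with rfl | rfl
    · exact Or.inl (pow_zero _)
    · exact Or.inr gI_sq
  rcases h8 with h8 | h8 <;> rcases neg_one_pow_eq_or GaussianInt a with h9 | h9 <;>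
    rw [h8, h9] at h7
  · left; simpa using h7
  · right; simpa using h7
  · right; simpa using h7
  · left; simpa using h7

/-- **the Rudvalis group has a non-real element** -/
theorem nrel : Cfsg.Agent.H721.SR.NRel Ru := by
  obtain ⟨g, hg⟩ := exists_T Main.hyp Prep.span_bl
  refine ⟨QuotientGroup.mk' (Subgroup.center fourRu) g, fun h => ?_⟩
  have h1 := T_of_real h
  rw [hg] at h1
  revert h1
  decide

theorem nrel_ru {K : Type*} [Group K] (h : IsoRu K) : Cfsg.Agent.H721.SR.NRel K := by
  obtain ⟨e⟩ := h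
  exact nrel.congr e.symm

end Cfsg.Agent.H29.RuR

private theorem dce_cfbcb00d1d47 : _root_.True := by
  try have : _root_.True := by simp only [_root_.Cfsg.Agent.H29.RuR.fr.eq_1]
  try have : _root_.True := by simp only [_root_.Cfsg.Agent.H29.RuR.A.congr_simp]
  try have : _root_.True := by simp only [_root_.Cfsg.Agent.H29.RuR.T.congr_simp]
  exact _root_.True.intro
end
end
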